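import Cfsg.Agent.Lib.RepDeg.OGrp

/-!
# Singular vectors orthogonal to a given one
-/

namespace Cfsg.Lib.RepDeg

open QuadraticMap Module Cfsg.Lib.Orth

set_option linter.unusedSectionVars false

variable {F V : Type*} [Field F] [AddCommGroup V] [Module F V] {Q : QuadraticForm F V}
  [Finite F] [FiniteDimensional F V]

theorem card_sing_perp {w w' : V} (h : IsHyp Q w w') :
    Nat.card {x // Q x = 0 ∧ polar Q w x = 0} =
      Nat.card F * cnt (Q.restrict (hperp Q w w')) 0 := by
  rw [cnt, ← Nat.card_prod]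
  refine Nat.card_congr ⟨fun x => (polar Q w' x, ⟨⟨_, h.hproj_mem x⟩,
    (h.Q_hproj x.2.2).trans x.2.1⟩), fun p => ⟨p.2.1 + p.1 • w, ?_, ?_⟩, fun x => ?_, fun p => ?_⟩
  · rw [Q_add_smul_of_singular h.left (mem_hperp.1 p.2.1.2).1]; exact p.2.2
  · simp [(mem_hperp.1 p.2.1.2).1, h.left]
  · simp [hproj, x.2.2]
  · simp [hproj, mem_hperp.1 p.2.1.2, h.polar_eq', h.left]

/-- Fewer than half of the singular vectors of `Q ⊥ H` are orthogonal to a given one. -/
def Ok (Q : QuadraticForm F V) : Prop :=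
  Nat.card F * cnt Q 0 ≤ (Nat.card F - 1) * Nat.card F ^ finrank F V

theorem ok_odd (hQ : ND Q) {m : ℕ} (h : finrank F V = 2 * m + 1) : Ok Q := by
  rw [Ok, cnt_odd_zero hQ h, h, ← pow_succ']
  have : 1 < Nat.card F := Finite.one_lt_card
  exact Nat.le_mul_of_pos_left _ (by omega)

theorem ok_minus (hQ : ND Q) {m : ℕ} (h : finrank F V = 2 * (m + 1)) (hw : wittIndex Q = m) :
    Ok Q := by
  have h1 := cnt_minus_zero hQ h hw
  have : 1 < Nat.card F := Finite.one_lt_card
  have h2 : Nat.card F ^ m ≤ Nat.card F ^ (m + 1) := Nat.pow_le_pow_right (by omega) (by omega)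
  refine le_trans ?_ (Nat.le_mul_of_pos_left _ (by omega))
  rw [h, show 2 * (m + 1) = 2 * m + 1 + 1 by ring, pow_succ']
  exact Nat.mul_le_mul_left _ (by omega)

theorem ok_plus (hQ : ND Q) {m : ℕ} (h : finrank F V = 2 * (m + 1)) (hw : wittIndex Q = m + 1)
    (h3 : 3 < Nat.card F) : Ok Q := by
  have h1 := cnt_plus_zero hQ h hw
  have h2 : Nat.card F ^ (m + 1) ≤ Nat.card F ^ (2 * m + 1) :=
    Nat.pow_le_pow_right (by omega) (by omega)
  rw [Ok, h, show 2 * (m + 1) = 2 * m + 1 + 1 by ring, pow_succ', mul_left_comm]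
  refine Nat.mul_le_mul_left _ (le_trans (by omega) (Nat.mul_le_mul_right _ (by omega : 2 ≤ _)))

open Classical in
theorem two_mul_lt [Fintype V] (hQ : ND Q) (h3 : 3 ≤ finrank F V) {w w' : V} (h : IsHyp Q w w')
    (hok : Ok (Q.restrict (hperp Q w w'))) {n : V → ℝ} (h0 : n 0 = 0)
    (hn : ∀ v, Q v ≠ 0 → n v = 0) (hinv : ∀ g ∈ eichGroup Q, ∀ v, n (g.1 v) = n v)
    (hpos : 0 < ∑ v, n v) : 2 * ∑ v with polar Q w v = 0, n v < ∑ v, n v := by
  set S : Finset V := {x | Q x = 0 ∧ x ≠ 0} with hS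
  have h1 : ∀ (m : V → ℝ), (∀ g ∈ eichGroup Q, ∀ v, m (g.1 v) = m v) → ∀ y ∈ S,
      ∑ v with polar Q y v = 0, m v = ∑ v with polar Q w v = 0, m v := fun m hm y hy => by
    simp only [hS, Finset.mem_filter, Finset.mem_univ, true_and] at hy
    obtain ⟨g, hg, c, hc, h1⟩ := exists_eichGroup_map_singular hQ h3 h.left hy.1 h.ne_zero hy.2
    refine (Finset.sum_equiv g.1.toEquiv (fun v => ?_) fun v _ => (hm g hg v).symm).symm
    simp [← O.map_polar g w v, h1, hc]
  set k := ∑ v with polar Q w v = 0, (if v ∈ S then (1 : ℝ) else 0) with hk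
  have h2 : S.card * ∑ v with polar Q w v = 0, n v = k * ∑ v, n v := by
    rw [← nsmul_eq_mul, ← Finset.sum_const, ← Finset.sum_congr rfl (h1 n hinv), Finset.mul_sum]
    simp only [Finset.sum_filter]
    rw [Finset.sum_comm]
    refine Finset.sum_congr rfl fun v _ => ?_
    by_cases hv : v ∈ S
    · rw [hk, ← h1 (fun v => if v ∈ S then 1 else 0) (fun g _ v => by simp [hS]) v hv,
        Finset.sum_filter (fun x => polar Q v x = 0), Finset.sum_mul]
      refine (Finset.sum_congr rfl fun x hx => ?_).trans (Finset.sum_subset (Finset.subset_univ S)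
        fun x _ hx => by simp [hx])
      simp [hx, polar_comm Q x v]
    · have : n v = 0 := by
        by_cases h4 : v = 0
        · rw [h4, h0]
        · exact hn v fun h5 => hv (by simp [hS, h4, h5])
      simp [this]
  have h4 : k + 1 = Nat.card F * cnt (Q.restrict (hperp Q w w')) 0 := by
    rw [← Nat.cast_mul, ← card_sing_perp h, Nat.card_eq_fintype_card, Fintype.card_subtype, hk,
      Finset.sum_boole, ← Nat.cast_succ, Nat.cast_inj, Nat.succ_eq_add_one,
      ← Finset.card_insert_of_notMem (a := 0) (by simp [hS])]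
    congr 1
    ext x
    by_cases hx : x = 0 <;> simp [hS, hx, and_comm]
  have h5 : (S.card : ℝ) + 1 = cnt Q 0 := by
    rw [cnt, Nat.card_eq_fintype_card, Fintype.card_subtype, ← Nat.cast_succ, Nat.cast_inj,
      Nat.succ_eq_add_one, ← Finset.card_insert_of_notMem (a := 0) (by simp [hS])]
    congr 1
    ext x
    by_cases hx : x = 0 <;> simp [hS, hx]
  have h6 : (Nat.card F * cnt (Q.restrict (hperp Q w w')) 0 : ℝ) ≤
      ((Nat.card F - 1) * Nat.card F ^ finrank F (hperp Q w w') : ℕ) := by exact_mod_cast hok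
  rw [h.cnt_eq, Nat.cast_add, Nat.cast_mul (Nat.card F)] at h5
  have h7 : 2 * k < S.card := by linarith
  have h8 : (0 : ℝ) < S.card := lt_of_le_of_lt (by positivity) h7
  refine lt_of_mul_lt_mul_left ?_ h8.le
  nlinarith

end Cfsg.Lib.RepDeg
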