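import Cfsg.Agent.Lib.RepDeg.OStep

/-!
# A representation of `Ω(Q)` is large or critical
-/

namespace Cfsg.Lib.RepDeg

open QuadraticMap Module Cfsg.Lib.Orth Cfsg.Lib.Sz Cfsg.Lib.CharDeg
open scoped InnerProductSpace ComplexConjugate commutatorElement

set_option linter.unusedSectionVars false

variable {F V : Type*} [Field F] [AddCommGroup V] [Module F V] {Q : QuadraticForm F V}
  [Finite F] [FiniteDimensional F V]
  {M : Type*} [NormedAddCommGroup M] [InnerProductSpace ℂ M] [FiniteDimensional ℂ M]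
  {ρ : eichGroup Q →* End ℂ M} {ψ : AddChar F ℂ} {e f : V}

/-- The elements of `Ω` fixing three vectors. -/
def fix3 (Q : QuadraticForm F V) (e f v : V) : Subgroup (O Q) :=
  commutator (O Q) ⊓ fixer Q (Submodule.span F {e, f, v})

theorem mem_fix3 {v : V} (g : O Q) :
    g ∈ fix3 Q e f v ↔ g ∈ commutator (O Q) ∧ g.1 e = e ∧ g.1 f = f ∧ g.1 v = v := by
  simp [fix3, mem_fixer_span]

/-- The stabiliser of a vector of the representation. -/
def vst (ρ : eichGroup Q →* End ℂ M) (y : M) : Subgroup (eichGroup Q) where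
  carrier := {g | ρ g y = y}
  one_mem' := by simp
  mul_mem' {a b} ha hb := by
    simp only [Set.mem_setOf_eq] at *; rw [map_mul, End.mul_apply, hb, ha]
  inv_mem' {a} ha := by
    simp only [Set.mem_setOf_eq] at *
    rw [← ha, ← End.mul_apply, ← map_mul, inv_mul_cancel, map_one, ha, End.one_apply]

theorem comm_mem_vst (hQ : ND Q) (h5 : 5 ≤ finrank F V) {v : V} (h1 : finrank ℂ (WS ρ ψ e v) ≤ 1)
    {y : M} (hy : y ∈ WS ρ ψ e v) : ∀ a ∈ fix3 Q e f v, ∀ b ∈ fix3 Q e f v,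
      ⁅a, b⁆ ∈ (vst ρ y).map (Subgroup.subtype _) := by
  have h2 : ∀ a (ha : a ∈ fix3 Q e f v), (⟨a, comm_eq hQ h5 ▸ ha.1⟩ : eichGroup Q) ∈
      lineStabRep ρ y := fun a ha => by
    rcases eq_or_ne y 0 with rfl | h0
    · exact ⟨1, by simp⟩
    refine mem_lineStabRep_of_finrank (le_antisymm h1 (Nat.pos_of_ne_zero fun e =>
      (Submodule.ne_bot_iff _).2 ⟨y, hy, h0⟩ (Submodule.finrank_eq_zero.1 e))) hy h0 ?_
    simpa [((mem_fix3 a).1 ha).2] using WS_map ⟨a, comm_eq hQ h5 ▸ ha.1⟩ hy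
  exact fun a ha b hb => ⟨_, commutator_apply_of_mem (h2 a ha) (h2 b hb), rfl⟩

theorem apply_of_mem_map {y : M} {g : eichGroup Q}
    (h : g.1 ∈ (vst ρ y).map (Subgroup.subtype _)) : ρ g y = y := by
  obtain ⟨k, hk, e⟩ := h
  rwa [← show k = g from Subtype.ext e]

theorem ncard_Q (Q : QuadraticForm F V) (c : F) : {v | Q v = c}.ncard = cnt Q c := rfl

theorem ncard_sing (Q : QuadraticForm F V) : {v | Q v = 0 ∧ v ≠ 0}.ncard = cnt Q 0 - 1 :=
  card_singular_ne_zero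

theorem Crit.ne_one (hψ : ψ ≠ 1) (hQ : ND Q) (h5 : 5 ≤ finrank F V) (hc : Crit ρ ψ) :
    ∃ g, ρ g ≠ 1 := by
  by_contra! h1
  obtain ⟨e, f, h⟩ := exists_isHyp_of_three_le hQ (by omega)
  have := h.finrank_hperp hQ
  obtain ⟨v, hv, v', hv', h'⟩ := exists_isHyp_mem (h.nd_hperp hQ) (by omega)
  obtain ⟨y, hy, h0⟩ := (Submodule.ne_bot_iff _).1 (hc.c e f v h hv h'.left h'.ne_zero)
  simpa [h'.polar_eq'] using perp_of_fixed hψ (u := 0) hy h0 (mem_hperp.1 hv').1 (by simp [h1])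

variable (hQ : ND Q) (hρ : IsUn ρ) (hψ : ψ ≠ 1) (h : IsHyp Q e f)
include hQ hρ hψ h

theorem exists_nontriv_ns (h10 : 10 ≤ finrank F V)
    (h1 : ∀ v ∈ hperp Q e f, Q v = 0 → v ≠ 0 → WS ρ ψ e v = ⊥) {c : F} (hc : c ≠ 0)
    (h2 : ∀ v ∈ hperp Q e f, Q v = c → finrank ℂ (WS ρ ψ e v) = 1) :
    ∃ g, ∃ y ∈ WS ρ ψ e 0, ρ (lev h g) y ≠ y := by
  have h3 := h.finrank_hperp hQ
  obtain ⟨w, hw, w', hw', h'⟩ := exists_isHyp_mem (h.nd_hperp hQ) (by omega)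
  have h4 := finrank_inf_hperp hQ (hperp Q e f) w w'
  have hU := h.nd_inf hQ h' hw hw'
  obtain ⟨u, hu, rfl⟩ := OMax.exists_Q_eq_mem hU (by omega) c
  obtain ⟨y, hy, hy0⟩ := Submodule.exists_mem_ne_zero_of_ne_bot (p := WS ρ ψ e u) fun h0 => by
    have := h2 u hu.1 rfl
    rw [h0, finrank_bot] at this
    exact zero_ne_one this
  obtain ⟨x, hx, x', hx', h5, h6⟩ := exists_hyp_perp hU (by omega) hu hc
  have h7 := finrank_inf_hperp hQ (hperp Q e f ⊓ hperp Q w w') x x'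
  obtain ⟨z, hz, z', hz', h8, h9⟩ := exists_hyp_perp (nd_inf_hperp hU h5 hx hx') (by omega)
    ⟨hu, h6⟩ hc
  have h11 : ∀ a ∈ hperp Q e f, ∀ b ∈ hperp Q e f, polar Q a u = 0 → polar Q b u = 0 →
      eich Q a b ∈ fix3 Q e f u := fun a ha b hb h11 h12 => (mem_fix3 _).2
    ⟨eich_mem_commutator hQ (not_exc_of_five_le (by omega)) _ _,
      OMax.eich_apply_of_perp' ((polar_comm ..).trans (mem_hperp.1 ha).1)
        ((polar_comm ..).trans (mem_hperp.1 hb).1),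
      OMax.eich_apply_of_perp' ((polar_comm ..).trans (mem_hperp.1 ha).2)
        ((polar_comm ..).trans (mem_hperp.1 hb).2), OMax.eich_apply_of_perp' h11 h12⟩
  obtain ⟨a, ha, s, hs, h12⟩ := exists_nontriv hQ hρ hψ h h' hw hw' (by omega)
    (fun c hc a _ y hy => by
      rw [h1 _ (Submodule.smul_mem _ _ hw) (by simp [Q_smul, h'.left])
        (smul_ne_zero hc h'.ne_zero), Submodule.mem_bot] at hy
      simp [hy]) hu (ne_zero_of_Q_ne_zero hc) hy hy0 fun a ha h12 => apply_of_mem_map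
    (lam_hyp (comm_mem_vst (f := f) hQ (by omega) (h2 u hu.1 rfl).le hy) h'.left
      (A := hperp Q e f ⊓ hperp Q w w' ⊓ LinearMap.ker ((polarBilin Q).flip u))
      (fun a ha => (mem_hperp.1 ha.1.2).1) (fun a ha => h11 _ hw _ ha.1.1 (mem_hperp.1 hu.2).1 ha.2)
      (fun a ha b hb => h11 _ ha.1.1 _ hb.1.1 ha.2 hb.2) ⟨hx, (mem_hperp.1 h6).1⟩
      ⟨hx', (mem_hperp.1 h6).2⟩ h5 ⟨⟨hz.1, (mem_hperp.1 h9).1⟩, hz.2⟩
      ⟨⟨hz'.1, (mem_hperp.1 h9).2⟩, hz'.2⟩ (by simp [h8.polar_eq]) ⟨ha, h12⟩)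
  exact ⟨E _ ⟨w, hw⟩ ⟨a, ha.1⟩, s, hs, by rwa [lev_E]⟩

theorem dichotomy (h7 : 7 ≤ finrank F V)
    (hc : 3 < Nat.card F ∨ 9 ≤ finrank F V ∨ (8 ≤ finrank F V ∧ wittIndex Q ≤ 3))
    (h1 : ∃ g, ρ g ≠ 1) {b : ℕ} (hb : b + 1 ≤ cnt (Q.restrict (hperp Q e f)) 0)
    (hb' : ∀ c ≠ 0, b ≤ cnt (Q.restrict (hperp Q e f)) c) :
    2 * b ≤ finrank ℂ M ∨ Crit ρ ψ ∨ (Nat.card F ≤ 3 ∧ ∃ c ≠ 0,
      cnt (Q.restrict (hperp Q e f)) c + finrank ℂ (WS ρ ψ e 0) ≤ finrank ℂ M ∧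
      (10 ≤ finrank F V → ∃ g, ∃ y ∈ WS ρ ψ e 0, ρ (lev h g) y ≠ y)) := by
  have : Finite V := Module.finite_of_finite F
  have hd := cpl_left hQ h
  have hpos : ∀ {x v}, WS ρ ψ x v ≠ ⊥ ↔ 1 ≤ finrank ℂ (WS ρ ψ x v) := by
    simp [Nat.one_le_iff_ne_zero]
  by_cases h2 : ∃ v ∈ hperp Q e f, Q v ≠ 0 ∧ WS ρ ψ e v ≠ ⊥
  · obtain ⟨v, hv, h2, h3⟩ := h2
    have h4 : ∀ t ≠ 0, ∀ u ∈ hperp Q e f, Q u = t ^ 2 * Q v →
        finrank ℂ (WS ρ ψ e v) ≤ finrank ℂ (WS ρ ψ e u) := fun t ht u hu h4 =>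
      finrank_WS_le hQ (by omega) h h hv hu (ne_zero_of_Q_ne_zero h2)
        (ne_zero_of_Q_ne_zero (Q := Q) (by simp [*])) ht h4
    rw [hpos] at h3
    by_cases h5 : 3 < Nat.card F
    · obtain ⟨t, ht, ht'⟩ := exists_torus h5
      have h6 := hd.ncard_mul_add_le hψ ρ (S := {u | Q.restrict _ u = Q v} ∪
        {u | Q.restrict _ u = t ^ 2 * Q v}) (by simp [h2.symm, h2, ht]) (d := 1) (by
          rintro u (hu | hu)
          exacts [h3.trans (h4 1 one_ne_zero _ u.2 (by simpa using hu)), h3.trans (h4 t ht _ u.2 hu)])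
      rw [Set.ncard_union_eq (Set.disjoint_left.2 fun u h6 h7 =>
        ht' ((mul_eq_right₀ h2).1 (h7.symm.trans h6))), ncard_Q, ncard_Q] at h6
      have := hb' _ h2
      have := hb' (t ^ 2 * Q v) (by simp [*])
      omega
    by_cases h6 : ∃ u ∈ hperp Q e f, Q u = 0 ∧ u ≠ 0 ∧ WS ρ ψ e u ≠ ⊥
    · obtain ⟨u, hu, h6, h8, h9⟩ := h6
      have h10 := hd.ncard_mul_add_le hψ ρ (S := {u | Q.restrict _ u = Q v} ∪
        {u | Q.restrict _ u = 0 ∧ u ≠ 0}) (by simp [h2.symm]) (d := 1) (by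
          rintro x (hx | hx)
          exacts [h3.trans (h4 1 one_ne_zero _ x.2 (by simpa using hx)), (hpos.1 h9).trans
            (finrank_WS_le hQ (by omega) h h hu x.2 h8 (by simpa using hx.2) one_ne_zero
              (by simpa [h6] using hx.1))])
      rw [Set.ncard_union_eq (Set.disjoint_left.2 fun u h6 h7 => h2 (h6.symm.trans h7.1)), ncard_Q,
        ncard_sing] at h10
      have := hb' _ h2
      omega
    have h8 := hd.ncard_mul_add_le hψ ρ (S := {u | Q.restrict _ u = Q v}) (by simp [h2.symm])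
      fun u hu => h4 1 one_ne_zero _ u.2 (by simpa using hu)
    rw [ncard_Q] at h8
    have := hb' _ h2
    rcases h3.eq_or_lt with h3 | h3
    swap
    · exact Or.inl (by nlinarith)
    push Not at h6
    refine Or.inr (Or.inr ⟨by omega, _, h2, by rwa [← h3, mul_one] at h8, fun h10 =>
      exists_nontriv_ns hQ hρ hψ h h10 h6 h2 fun u hu h9 => le_antisymm (le_of_le_of_eq
        (finrank_WS_le hQ (by omega) h h hu hv (ne_zero_of_Q_ne_zero (h9 ▸ h2))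
          (ne_zero_of_Q_ne_zero h2) one_ne_zero (by simp [h9])) h3.symm)
        (h3.trans_le (h4 1 one_ne_zero _ hu (by simp [h9])))⟩)
  push Not at h2
  obtain ⟨v, hv, h0, h3⟩ := exists_WS_ne_bot hQ (by omega) hψ h1 h
  have h4 : Q v = 0 := by_contra fun h4 => h3 (h2 v hv h4)
  have h5 : ∀ e' f' u, IsHyp Q e' f' → u ∈ hperp Q e' f' → Q u = 0 → u ≠ 0 →
      finrank ℂ (WS ρ ψ e' u) = finrank ℂ (WS ρ ψ e v) := fun e' f' u h' hu h5 h6 => le_antisymm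
    (finrank_WS_le hQ (by omega) h' h hu hv h6 h0 one_ne_zero (by simp [*]))
    (finrank_WS_le hQ (by omega) h h' hv hu h0 h6 one_ne_zero (by simp [*]))
  rcases (hpos.1 h3).eq_or_lt with h6 | h6
  swap
  · have h8 := hd.ncard_mul_add_le hψ ρ (S := {u | Q.restrict _ u = 0 ∧ u ≠ 0}) (by simp)
      fun u hu => h6.trans_eq (h5 e f u h u.2 hu.1 (by simpa using hu.2)).symm
    rw [ncard_sing] at h8
    omega
  refine Or.inr (Or.inl ⟨fun e' f' u h' hu h8 => ?_, fun e' f' u h' hu h8 h9 g h10 h11 h12 y hy =>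
    apply_of_mem_map (stab_perfect (comm_mem_vst (f := f') hQ (by omega)
      ((h5 _ _ _ h' hu h8 h9).trans h6.symm).le hy) hQ h7 hc h' hu h8 h9 mem_fix3
      ((mem_fix3 _).2 ⟨(comm_eq hQ (by omega)).ge g.2, h10, h11, h12⟩)),
    fun e' f' u h' hu h8 h9 => hpos.2 (h6.trans (h5 _ _ _ h' hu h8 h9).symm).le⟩)
  have := h.finrank_hperp hQ
  obtain ⟨x, hx, h9⟩ := OMax.exists_Q_eq_mem (h.nd_hperp hQ) (by omega) (Q u)
  have := finrank_WS_le (ρ := ρ) (ψ := ψ) hQ (by omega) h' h hu hx (ne_zero_of_Q_ne_zero h8)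
    (ne_zero_of_Q_ne_zero (h9 ▸ h8)) one_ne_zero (by simp [h9])
  rwa [h2 x hx (h9 ▸ h8), finrank_bot, Nat.le_zero, Submodule.finrank_eq_zero] at this

end Cfsg.Lib.RepDeg
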