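import Cfsg.Agent.Lib.Orth.LongRoot2
import Cfsg.Agent.Lib.Orth.Families
import Cfsg.Agent.Lib.OMax.Sub

/-!
# Transitivity and perfectness statements in `Ω(Q)`
-/

namespace Cfsg.Lib.RepDeg

open QuadraticMap Module Cfsg.Lib.Orth
open Cfsg.Lib.OMax (AE mem_AE eich_apply_of_perp' eich_map_explicit)
open scoped commutatorElement

set_option linter.unusedSectionVars false

variable {F V : Type*} [Field F] [AddCommGroup V] [Module F V] {Q : QuadraticForm F V}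
  [Finite F] [FiniteDimensional F V]

theorem exists_partner {U : Submodule F V} (hU : ND (Q.restrict U)) {x : V} (hx : x ∈ U)
    (h : Q x = 0) (h0 : x ≠ 0) : ∃ y ∈ U, IsHyp Q x y := by
  obtain ⟨y, hy⟩ := exists_isHyp hU (e := ⟨x, hx⟩) h (by simpa using h0)
  exact ⟨y, y.2, hy.left, hy.right, hy.polar_eq⟩

theorem exists_polar_ne {U : Submodule F V} (hU : ND (Q.restrict U)) (h1 : 1 ≤ finrank F U) :
    ∃ a ∈ U, ∃ b ∈ U, polar Q a b ≠ 0 := by
  obtain ⟨a, ha⟩ := Module.finrank_pos_iff_exists_ne_zero (R := F) (M := U).1 h1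
  obtain ⟨b, hb⟩ := hU.exists_polar_ne ha
  exact ⟨a, a.2, b, b.2, hb⟩

theorem exists_hyp_perp' (hQ : ND Q) (h4 : 4 ≤ finrank F V) {u : V} (h0 : Q u ≠ 0) :
    ∃ x y, IsHyp Q x y ∧ u ∈ hperp Q x y := by
  have h1 := finrank_perp_singleton hQ (ne_zero_of_Q_ne_zero h0)
  obtain ⟨x, hx, hx0, hx1⟩ := exists_singular_mem Q (perp Q (F ∙ u)) (by omega)
  obtain ⟨y, hy, h⟩ := exists_isHyp_perp hQ (W := F ∙ u) hx1 (fun h => by
    obtain ⟨c, rfl⟩ := Submodule.mem_span_singleton.1 h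
    rw [Q_smul] at hx1
    simp_all) hx
  exact ⟨x, y, h, mem_hperp.2 ⟨(polar_comm ..).trans (mem_perp_singleton.1 hx),
    (polar_comm ..).trans (mem_perp_singleton.1 hy)⟩⟩

theorem exists_hyp_perp {U : Submodule F V} (hU : ND (Q.restrict U)) (h4 : 4 ≤ finrank F U) {u : V}
    (hu : u ∈ U) (h0 : Q u ≠ 0) : ∃ x ∈ U, ∃ y ∈ U, IsHyp Q x y ∧ u ∈ hperp Q x y := by
  obtain ⟨x, y, h, h1⟩ := exists_hyp_perp' hU h4 (u := ⟨u, hu⟩) h0
  exact ⟨x, x.2, y, y.2, ⟨h.left, h.right, h.polar_eq⟩, by simpa [mem_hperp] using h1⟩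

theorem exists_omega_of (hQ : ND Q) (hE : ¬ Exc Q) (g : O Q) {X U : Submodule F V}
    (hU : ND (Q.restrict U)) (h2 : 2 ≤ finrank F U) (h : U ≤ perp Q X) :
    ∃ k ∈ commutator (O Q), ∀ x ∈ X, k.1 x = g.1 x := by
  obtain ⟨k, hk, h3⟩ := exists_mul_mem_commutator_of_nd hQ hE (K := fixer Q X) hU h2
    (fun v hv x hx => refl_apply_of_perp (mem_perp'.1 (h hv) x hx)) g
  exact ⟨_, h3, fun x hx => by rw [O.mul_apply, hk x hx]⟩

theorem exists_step (hQ : ND Q) {U : Submodule F V} (hU : ND (Q.restrict U)) {u u' : V}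
    (hu : u ∈ U) (hu' : u' ∈ U) (h0 : u ≠ 0) (h0' : u' ≠ 0) (h : Q u = Q u') :
    ∃ g ∈ fixer Q (perp Q U), g.1 u = u' := by
  obtain ⟨g, hg, h1⟩ := witt_step hQ (H := perp Q U)
    (fun h => h0 (nd_restrict_iff.1 hU u hu (mem_perp'.1 h)))
    (fun h => h0' (nd_restrict_iff.1 hU u' hu' (mem_perp'.1 h))) h
    fun x hx => by rw [mem_perp'.1 hx u hu, mem_perp'.1 hx u' hu']
  exact ⟨g, genIn_perp_le_fixer _ hg, h1⟩

theorem left_mem_perp {e f : V} {U : Submodule F V} (h : U ≤ hperp Q e f) : e ∈ perp Q U :=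
  mem_perp'.2 fun _ hw => (mem_hperp.1 (h hw)).1

theorem right_mem_perp {e f : V} {U : Submodule F V} (h : U ≤ hperp Q e f) : f ∈ perp Q U :=
  mem_perp'.2 fun _ hw => (mem_hperp.1 (h hw)).2

theorem exists_omega_triple (hQ : ND Q) (h6 : 6 ≤ finrank F V) {e f v e' f' v' : V}
    (h : IsHyp Q e f) (h' : IsHyp Q e' f') (hv : v ∈ hperp Q e f) (hv' : v' ∈ hperp Q e' f')
    (h0 : v ≠ 0) (h0' : v' ≠ 0) (hq : Q v = Q v') :
    ∃ g ∈ commutator (O Q), g.1 e = e' ∧ g.1 f = f' ∧ g.1 v = v' := by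
  obtain ⟨g, h1, h2⟩ := witt_hyp hQ h h'
  obtain ⟨k, hk, h3⟩ := exists_step hQ (h'.nd_hperp hQ) (u := g.1 v)
    (by simpa [mem_hperp, ← h1, ← h2] using hv) hv' (O.apply_ne_zero g h0) h0' (by simpa)
  have h4 := h.finrank_hperp hQ
  obtain ⟨U, hU, h5, h7, h8⟩ : ∃ U : Submodule F V, ND (Q.restrict U) ∧ 2 ≤ finrank F U ∧
      U ≤ hperp Q e f ∧ v ∈ perp Q U := by
    by_cases h5 : Q v = 0
    · obtain ⟨y, hy, h7⟩ := exists_partner (h.nd_hperp hQ) hv h5 h0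
      have := finrank_inf_hperp hQ (hperp Q e f) v y
      exact ⟨_, h.nd_inf hQ h7 hv hy, by omega, inf_le_left, left_mem_perp inf_le_right⟩
    · obtain ⟨x, hx, y, hy, h7, h8⟩ := exists_hyp_perp (h.nd_hperp hQ) (by omega) hv h5
      exact ⟨_, h7.nd_span, h7.finrank_span.ge, by simp [Submodule.span_le, Set.insert_subset_iff, *],
        h8⟩
  obtain ⟨l, hl, h9⟩ := exists_omega_of hQ (not_exc_of_five_le (by omega)) (k * g) hU h5
    (X := perp Q U) (le_perp_perp Q U)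
  refine ⟨l, hl, ?_, ?_, ?_⟩
  · rw [h9 _ (left_mem_perp h7), O.mul_apply, h1, hk _ (left_mem_perp le_rfl)]
  · rw [h9 _ (right_mem_perp h7), O.mul_apply, h2, hk _ (right_mem_perp le_rfl)]
  · rw [h9 _ h8, O.mul_apply, h3]

theorem exists_omega_swap (hQ : ND Q) (h6 : 6 ≤ finrank F V) {e f w w' : V} (h : IsHyp Q e f)
    (h' : IsHyp Q w w') (hw : w ∈ hperp Q e f) (hw' : w' ∈ hperp Q e f) :
    ∃ g ∈ commutator (O Q), g.1 e = w ∧ g.1 w = e := by
  obtain ⟨g, hg, h1, -, h2⟩ := exists_omega_triple hQ h6 h h' hw (v' := e) (mem_hperp.2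
    ⟨(polar_comm ..).trans (mem_hperp.1 hw).1, (polar_comm ..).trans (mem_hperp.1 hw').1⟩)
    h'.ne_zero h.ne_zero (by rw [h.left, h'.left])
  exact ⟨g, hg, h1, h2⟩

theorem exists_omega_five (hQ : ND Q) (h7 : 7 ≤ finrank F V) {e f w w' u u' : V}
    (h : IsHyp Q e f) (h' : IsHyp Q w w') (hw : w ∈ hperp Q e f) (hw' : w' ∈ hperp Q e f)
    (hu : u ∈ hperp Q e f ⊓ hperp Q w w') (hu' : u' ∈ hperp Q e f ⊓ hperp Q w w') (h0 : u ≠ 0)
    (h0' : u' ≠ 0) (hq : Q u = 0) (hq' : Q u' = 0) :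
    ∃ g ∈ commutator (O Q), (∃ t : F, g.1 e = t • e) ∧ g ∈ stab Q (hperp Q e f) ∧ g.1 w = w ∧
      g.1 u = u' := by
  have hU := h.nd_inf hQ h' hw hw'
  obtain ⟨g, hg, h1⟩ := exists_step hQ hU hu hu' h0 h0' (by rw [hq, hq'])
  obtain ⟨y, hy, h2⟩ := exists_partner hU hu hq h0
  have h3 := h.finrank_hperp hQ
  have h4 := finrank_inf_hperp hQ (hperp Q e f) w w'
  have h5 := finrank_inf_hperp hQ (hperp Q e f ⊓ hperp Q w w') u y
  obtain ⟨z, hz, h6⟩ := exists_nonsingular_mem (nd_inf_hperp hU h2 hu hy) (by omega)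
  obtain ⟨k, hk, h8⟩ := exists_mul_mem_commutator hQ (not_exc_of_five_le (by omega))
    (K := stab Q (F ∙ e) ⊓ stab Q (hperp Q e f) ⊓ fixer Q (Submodule.span F {w, u}))
    ⟨refl Q z, ⟨⟨fixer_le_stab _ (mem_fixer_span.2 (by
      simpa using refl_apply_of_perp ((polar_comm ..).trans (mem_hperp.1 hz.1.1).1))),
      mem_stab_iff_mapsTo.2 fun x hx => by
        rw [refl_apply]; exact sub_mem hx (Submodule.smul_mem _ _ hz.1.1)⟩, mem_fixer_span.2 (by
      simpa using ⟨refl_apply_of_perp ((polar_comm ..).trans (mem_hperp.1 hz.1.2).1),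
        refl_apply_of_perp ((polar_comm ..).trans (mem_hperp.1 hz.2).1)⟩)⟩, dickson_refl hQ h6⟩
    (fun h2 => by
      obtain ⟨t, ht⟩ := exists_not_isSquare h2
      have ht0 := ne_zero_of_not_isSquare ht
      refine ⟨hrot Q e f t, ⟨⟨mem_stab_iff_mapsTo.2 fun x hx => ?_, fixer_le_stab _
        fun x hx => hrot_of_hperp hx t⟩, mem_fixer_span.2 (by
          simpa using ⟨hrot_of_hperp hw t, hrot_of_hperp hu.1 t⟩)⟩, h.dickson_hrot hQ ht0,
        by rw [h.spinor_hrot hQ ht0, sqsign_of_not_isSquare ht]⟩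
      obtain ⟨c, rfl⟩ := Submodule.mem_span_singleton.1 hx
      rw [map_smul, h.hrot_left ht0]
      exact Submodule.smul_mem _ _ (Submodule.smul_mem _ _ (Submodule.mem_span_singleton_self e))) g
  have h9 := hg _ (left_mem_perp inf_le_left)
  have h10 := hg _ (right_mem_perp inf_le_left)
  obtain ⟨t, ht⟩ := Submodule.mem_span_singleton.1
    (apply_mem_of_mem_stab hk.1.1 (Submodule.mem_span_singleton_self e))
  have h11 := mem_fixer_span.1 hk.2
  refine ⟨_, h8, ⟨t, by rw [O.mul_apply, ← ht, map_smul, h9]⟩, mul_mem (mem_stab_iff_mapsTo.2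
    fun x hx => ?_) hk.1.2, ?_, ?_⟩
  · rw [mem_hperp, ← h9, ← h10, O.map_polar, O.map_polar]
    exact mem_hperp.1 hx
  · rw [O.mul_apply, h11 w (by simp), hg _ (left_mem_perp inf_le_right)]
  · rw [O.mul_apply, h11 u (by simp), h1]

theorem mem_of_fixer (hQ : ND Q) (hE : ¬ Exc Q) {U : Submodule F V} (hU : ND (Q.restrict U))
    (h3 : 3 ≤ finrank F U) (hE' : ¬ Exc (Q.restrict U)) {T : Subgroup (O Q)}
    (hT : ∀ x ∈ U, ∀ a ∈ U, Q x = 0 → polar Q x a = 0 → eich Q x a ∈ T) {g : O Q}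
    (hg : g ∈ commutator (O Q)) (hg' : g ∈ fixer Q (perp Q U)) : g ∈ T := by
  have h := (isOSum_perp hU).symm
  obtain ⟨k, rfl⟩ := (h.range_extR hQ).ge hg'
  rw [mem_commutator_iff hQ hE, h.dickson_extR, h.spinor_extR, ← mem_commutator_iff _ hE',
    commutator_eq_eichGroup' hU hE' h3] at hg
  exact eichGroup_le (K := T.comap h.extR) (fun x a h1 h2 => by
    rw [Subgroup.mem_comap, h.extR_eich]; exact hT _ x.2 _ a.2 h1 h2) hg

theorem isSquare_of_three (hQ : ND Q) (h3 : finrank F V = 3) {g : O Q} (hg : g ∈ eichGroup Q)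
    {u : V} (hu : Q u = 0) (h0 : u ≠ 0) {t : F} (h : g.1 u = t • u) : IsSquare t := by
  classical
  have hE : ¬ Exc Q := not_exc_of_card (Or.inr (by omega))
  have ht : t ≠ 0 := by rintro rfl; exact O.apply_ne_zero g h0 (by simpa using h)
  obtain ⟨y, hy⟩ := exists_isHyp hQ hu h0
  have h1 : polar Q u (g.1 y) = t⁻¹ := by
    have := O.map_polar g u y
    rw [h, polar_smul_left', hy.polar_eq] at this
    exact eq_inv_of_mul_eq_one_right this
  obtain ⟨z, hz, h2⟩ := hy.exists_eich_of_polar_ne (x := g.1 y) (by simp [hy.right])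
    (by rw [h1]; exact inv_ne_zero ht)
  set k := (hrot Q u y t)⁻¹ * (eich Q u z * g)
  have h4 : k.1 u = u := by
    rw [O.mul_apply, O.mul_apply, h, map_smul, eich_apply_self hu (mem_hperp.1 hz).1,
      O.inv_apply_eq, hy.hrot_left ht]
  have h5 : k.1 y = y := by
    rw [O.mul_apply, O.mul_apply, h2, O.inv_apply_eq, hy.hrot_right ht, h1]
  have h6 := (mem_commutator_iff hQ hE _).1 (eichGroup_le_commutator hQ hE
    (mul_mem (eich_mem_eichGroup u z) hg))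
  obtain ⟨a, ha, ha0⟩ := hy.exists_nonsingular hQ h3.ge
  have h7 : hperp Q u y = F ∙ a := by
    have := hy.finrank_hperp hQ
    refine (Submodule.eq_of_le_of_finrank_le (by simpa) ?_).symm
    rw [finrank_span_singleton (ne_zero_of_Q_ne_zero ha0)]; omega
  have h8 : k ∈ Subgroup.zpowers (refl Q a) := by
    rw [← fixer_eq_of_perp_eq_span hQ ha0 h7, mem_fixer_span]; simp [h4, h5]
  rw [mem_zpowers_iff_mem_range_orderOf, orderOf_refl hQ ha0] at h8
  obtain ⟨i, hi, h9⟩ := Finset.mem_image.1 h8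
  obtain rfl | rfl : i = 0 ∨ i = 1 := by simp at hi; omega
  · have := congrArg (spinor hQ) h9
    rw [map_mul, h6.2, map_inv, hy.spinor_hrot hQ ht] at this
    exact sqsign_eq_one_iff.1 (by simpa using this.symm)
  · have := congrArg (dickson hQ) h9
    rw [map_mul, h6.1, map_inv, hy.dickson_hrot hQ ht, pow_one, dickson_refl hQ ha0] at this
    simp at this

variable {T P : Subgroup (O Q)} (hT : ∀ a ∈ P, ∀ b ∈ P, ⁅a, b⁆ ∈ T) {z : V} (hz : Q z = 0)
  {A : Submodule F V} (hA : ∀ a ∈ A, polar Q z a = 0) (h1 : ∀ a ∈ A, eich Q z a ∈ P)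
include hT hz hA h1

theorem sub_mem_AE {g : O Q} (hg : g ∈ P) (hgz : g.1 z = z) {a : V} (ha : a ∈ A) :
    g.1 a - a ∈ AE T z :=
  ⟨by rw [polar_sub_right, hA a ha, ← hgz, O.map_polar, hA a ha, sub_zero],
    commutator_eich hz (hA a ha) hgz ▸ hT _ hg _ (h1 a ha)⟩

theorem lam_hyp (h2 : ∀ x ∈ A, ∀ b ∈ A, eich Q x b ∈ P) {x x' : V} (hx : x ∈ A) (hx' : x' ∈ A)
    (h : IsHyp Q x x') {a₀ b₀ : V} (ha₀ : a₀ ∈ A ⊓ hperp Q x x') (hb₀ : b₀ ∈ A ⊓ hperp Q x x')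
    (hab : polar Q a₀ b₀ ≠ 0) {a : V} (ha : a ∈ A) : eich Q z a ∈ T := by
  have h3 : ∀ x ∈ A, ∀ b ∈ A, ∀ a ∈ A, (eich Q x b).1 a - a ∈ AE T z := fun x hx b hb a ha =>
    sub_mem_AE hT hz hA h1 (h2 x hx b hb) (eich_apply_of_perp' ((polar_comm ..).trans (hA x hx))
      ((polar_comm ..).trans (hA b hb))) ha
  have h4 : ∀ x ∈ A, Q x = 0 → polar Q x a₀ = 0 → polar Q x b₀ = 0 → ∀ c : F, c • x ∈ AE T z :=
    fun x hx h4 h5 h6 c => by
      simpa [eich_apply_of_perp h4 h5 h6, hab, h6, eich_apply h4 h5, smul_smul] using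
        h3 x hx a₀ ha₀.1 _ (A.smul_mem (c / polar Q a₀ b₀) hb₀.1)
  have h5 := h4 x hx h.left (mem_hperp.1 ha₀.2).1 (mem_hperp.1 hb₀.2).1
  have h6 := h4 x' hx' h.right (mem_hperp.1 ha₀.2).2 (mem_hperp.1 hb₀.2).2
  have h7 := mem_hperp.1 (h.hproj_mem a)
  have h8 := add_mem (h3 x hx (hproj Q x x' a) (sub_mem (sub_mem ha (A.smul_mem _ hx))
    (A.smul_mem _ hx')) x' hx') (h5 (Q (hproj Q x x' a)))
  rw [eich_apply h.left h7.1, polar_comm Q _ x', h7.2, h.polar_eq] at h8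
  rw [← hproj_add_eq (Q := Q) x x' a]
  exact (add_mem (add_mem (h5 _) (h6 _)) (by convert neg_mem h8 using 1; module) : _ ∈ AE T z).2

theorem lam_aniso (hN : ND (Q.restrict A)) (h2 : 2 ≤ finrank F A) (h3 : ∀ a ∈ A, Q a = 0 → a = 0)
    (h4 : ∀ a ∈ A, ∀ b ∈ A, Q a ≠ 0 → Q a = Q b → refl Q a * refl Q b ∈ P) {a : V} (ha : a ∈ A) :
    eich Q z a ∈ T := by
  rcases eq_or_ne a 0 with rfl | h0
  · simp
  obtain ⟨c, hc, h5, h6⟩ : ∃ c ∈ A, c ∉ F ∙ a ∧ polar Q c a ≠ 0 := by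
    obtain ⟨b, hb, h5⟩ := Unitary.exists_notMem_of_lt (W := A) (Z := F ∙ a)
      (by rw [finrank_span_singleton h0]; omega)
    by_cases h6 : polar Q b a = 0
    swap
    · exact ⟨b, hb, h5, h6⟩
    obtain ⟨c, h7⟩ := hN.exists_polar_ne (x := ⟨a, ha⟩) (by simpa using h0)
    rw [polar_restrict, polar_comm] at h7
    by_cases h8 : c.1 ∈ F ∙ a
    · exact ⟨b + c, add_mem hb c.2, fun h => h5 (by simpa using sub_mem h h8), by simpa [h6]⟩
    · exact ⟨c, c.2, h8, h7⟩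
  have hc0 : Q c ≠ 0 := fun h => h5 (by simp [h3 c hc h])
  have ha0 : Q a ≠ 0 := fun h => h0 (h3 a ha h)
  have hb : (refl Q c).1 a ∈ A := by rw [refl_apply]; exact sub_mem ha (A.smul_mem _ hc)
  obtain ⟨x, hx, h7⟩ := exists_perp_polar_eq hN (W := F ∙ ⟨_, hb⟩) (u := ⟨a, ha⟩) (fun h => by
    obtain ⟨s, hs⟩ := Submodule.mem_span_singleton.1 h
    replace hs : s • (refl Q c).1 a = a := congrArg Subtype.val hs
    rw [refl_apply] at hs
    have hs0 : s ≠ 0 := by rintro rfl; exact h0 (by simpa using hs.symm)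
    refine h5 ((Submodule.smul_mem_iff _ (show s * ((Q c)⁻¹ * polar Q c a) ≠ 0 by simp [*])).1
      (Submodule.mem_span_singleton.2 ⟨s - 1, ?_⟩))
    linear_combination (norm := module) hs) (-Q a)
  have h8 := sub_mem_AE hT hz hA h1 (h4 a ha _ hb ha0 (by simp)) (by
    rw [O.mul_apply, refl_apply_of_perp ((polar_comm ..).trans (hA _ hb)),
      refl_apply_of_perp ((polar_comm ..).trans (hA _ ha))]) x.2
  have h9 := mem_perp_singleton.1 hx
  rw [polar_restrict] at h9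
  rw [O.mul_apply, refl_apply_of_perp h9, refl_apply,
    show polar Q a x = -Q a from h7] at h8
  simpa [ha0] using h8.2

theorem lam_torus {z' : V} (h : IsHyp Q z z') (hA' : ∀ a ∈ A, polar Q z' a = 0) {s : F}
    (hs : s ≠ 0) (hs' : s ≠ 1) (h2 : hrot Q z z' s ∈ P) {a : V} (ha : a ∈ A) : eich Q z a ∈ T := by
  have hb := A.smul_mem (s - 1)⁻¹ ha
  have := hT _ h2 _ (h1 _ hb)
  rwa [commutatorElement_def, conj_eich, h.hrot_left hs, hrot_of_hperp (mem_hperp.2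
    ⟨hA _ hb, hA' _ hb⟩), eich_smul_left hz (hA _ hb), ← eich_neg hz (hA _ hb),
    ← eich_add hz (hA _ (A.smul_mem _ hb)) (hA _ (neg_mem hb)), ← neg_smul, smul_smul, ← add_smul,
    show s * (s - 1)⁻¹ + -(s - 1)⁻¹ = 1 by field_simp [sub_ne_zero.2 hs']; ring, one_smul] at this

omit hz hA h1

omit hT in
theorem ts_add (hQ : ND Q) {e f v v' : V} (h : IsHyp Q e f) (h' : IsHyp Q v v')
    (hv : v ∈ hperp Q e f) {Y : Submodule F V} (hY : TS Q Y)
    (hY' : Y ≤ hperp Q e f ⊓ hperp Q v v') : finrank F Y + 2 ≤ wittIndex Q := by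
  have h1 : Y ⊔ F ∙ v ≤ hperp Q e f := sup_le (hY'.trans inf_le_left) (by simpa)
  have h2 := ((hY.sup_span (left_mem_perp (hY'.trans inf_le_right)) h'.left).sup_span
    (left_mem_perp h1) h.left).finrank_le_wittIndex
  rwa [Submodule.finrank_sup_span_singleton fun h3 => by
      simpa [h.polar_eq'] using (mem_hperp.1 (h1 h3)).2,
    Submodule.finrank_sup_span_singleton fun h3 => by
      simpa [h'.polar_eq'] using (mem_hperp.1 (hY' h3).2).2] at h2

omit hT in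
theorem exists_torus (h : 3 < Nat.card F) : ∃ t : F, t ≠ 0 ∧ t ^ 2 ≠ 1 := by
  classical
  have := Fintype.ofFinite F
  obtain ⟨t, -, ht⟩ := Finset.exists_mem_notMem_of_card_lt_card (s := {0, 1, -1})
    (t := (Finset.univ : Finset F)) (Finset.card_le_three.trans_lt (by
      rwa [Finset.card_univ, ← Nat.card_eq_fintype_card]))
  simp only [Finset.mem_insert, Finset.mem_singleton, not_or] at ht
  exact ⟨t, ht.1, fun e => by rcases sq_eq_one_iff.1 e with e | e <;> simp_all⟩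

/-- The stabiliser of a hyperbolic pair and an orthogonal singular vector is perfect. -/
theorem stab_perfect (hQ : ND Q) (h7 : 7 ≤ finrank F V)
    (hc : 3 < Nat.card F ∨ 9 ≤ finrank F V ∨ (8 ≤ finrank F V ∧ wittIndex Q ≤ 3)) {e f v : V}
    (h : IsHyp Q e f) (hv : v ∈ hperp Q e f) (hq : Q v = 0) (h0 : v ≠ 0)
    (hP : ∀ g, g ∈ P ↔ g ∈ commutator (O Q) ∧ g.1 e = e ∧ g.1 f = f ∧ g.1 v = v) : P ≤ T := by
  have hE : ¬ Exc Q := not_exc_of_five_le (by omega)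
  obtain ⟨v', hv', h'⟩ := exists_partner (h.nd_hperp hQ) hv hq h0
  have hU := h.nd_inf hQ h' hv hv'
  have h3 := h.finrank_hperp hQ
  have h4 := finrank_inf_hperp hQ (hperp Q e f) v v'
  have hp : ∀ {x}, x ∈ hperp Q e f ⊓ perp Q (F ∙ v) →
      polar Q x e = 0 ∧ polar Q x f = 0 ∧ polar Q x v = 0 := fun {x} hx =>
    ⟨(polar_comm ..).trans (mem_hperp.1 hx.1).1, (polar_comm ..).trans (mem_hperp.1 hx.1).2,
      (polar_comm ..).trans (mem_perp_singleton.1 hx.2)⟩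
  have h5 : ∀ x ∈ hperp Q e f ⊓ perp Q (F ∙ v), ∀ b ∈ hperp Q e f ⊓ perp Q (F ∙ v),
      eich Q x b ∈ P := fun x hx b hb => (hP _).2 ⟨eich_mem_commutator hQ hE _ _,
    eich_apply_of_perp' (hp hx).1 (hp hb).1, eich_apply_of_perp' (hp hx).2.1 (hp hb).2.1,
    eich_apply_of_perp' (hp hx).2.2 (hp hb).2.2⟩
  have h6 : hperp Q e f ⊓ hperp Q v v' ≤ hperp Q e f ⊓ perp Q (F ∙ v) :=
    fun x hx => ⟨hx.1, mem_perp_singleton.2 (mem_hperp.1 hx.2).1⟩
  have h8 : ∀ a ∈ hperp Q e f ⊓ perp Q (F ∙ v), eich Q v a ∈ T := fun a ha => by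
    obtain ⟨x, hx, x', hx', h8⟩ := exists_isHyp_mem hU (by omega)
    have := finrank_inf_hperp hQ (hperp Q e f ⊓ hperp Q v v') x x'
    obtain ⟨a₀, ha₀, b₀, hb₀, h9⟩ := exists_polar_ne (nd_inf_hperp hU h8 hx hx') (by omega)
    exact lam_hyp hT hq (A := hperp Q e f ⊓ perp Q (F ∙ v)) (fun a ha => mem_perp_singleton.1 ha.2)
      (h5 v ⟨hv, mem_perp_singleton.2 h'.polar_left⟩) h5 (h6 hx) (h6 hx') h8 ⟨h6 ha₀.1, ha₀.2⟩
      ⟨h6 hb₀.1, hb₀.2⟩ h9 ha
  have h9 : ∀ x ∈ hperp Q e f ⊓ hperp Q v v', ∀ a ∈ hperp Q e f ⊓ hperp Q v v', Q x = 0 →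
      polar Q x a = 0 → eich Q x a ∈ T := fun x hx a ha hx1 hxa => by
    rcases eq_or_ne x 0 with rfl | hx0
    · simp
    obtain ⟨x', hx', h9⟩ := exists_partner hU hx hx1 hx0
    have := finrank_inf_hperp hQ (hperp Q e f ⊓ hperp Q v v') x x'
    have hA := nd_inf_hperp hU h9 hx hx'
    have h10 : hproj Q x x' a ∈ hperp Q e f ⊓ hperp Q v v' ⊓ hperp Q x x' :=
      ⟨sub_mem (sub_mem ha (Submodule.smul_mem _ _ hx)) (Submodule.smul_mem _ _ hx'),
        h9.hproj_mem a⟩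
    rw [← h9.eich_hproj hxa]
    have h11 : ∀ a ∈ hperp Q e f ⊓ hperp Q v v' ⊓ hperp Q x x', polar Q x a = 0 :=
      fun a ha => (mem_hperp.1 ha.2).1
    have h12 : ∀ a ∈ hperp Q e f ⊓ hperp Q v v' ⊓ hperp Q x x', eich Q x a ∈ P :=
      fun a ha => h5 _ (h6 hx) _ (h6 ha.1)
    rcases hc with hc | hc | hc
    · obtain ⟨t, ht, ht'⟩ := exists_torus hc
      have h13 : ∀ y, polar Q x y = 0 → polar Q x' y = 0 → (hrot Q x x' (t ^ 2)).1 y = y :=
        fun y h1 h2 => hrot_of_hperp (mem_hperp.2 ⟨h1, h2⟩) _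
      exact lam_torus hT hx1 h11 h12 h9 (fun a ha => (mem_hperp.1 ha.2).2) (pow_ne_zero 2 ht) ht'
        ((hP _).2 ⟨eichGroup_le_commutator hQ hE (h9.hrot_sq_mem_eichGroup hQ (by omega) ht),
          h13 _ (hp (h6 hx)).1 (hp (h6 hx')).1, h13 _ (hp (h6 hx)).2.1 (hp (h6 hx')).2.1,
          h13 _ (hp (h6 hx)).2.2 (hp (h6 hx')).2.2⟩) h10
    · obtain ⟨y, hy, y', hy', h13⟩ := exists_isHyp_mem hA (by omega)
      have := finrank_inf_hperp hQ (hperp Q e f ⊓ hperp Q v v' ⊓ hperp Q x x') y y'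
      obtain ⟨a₀, ha₀, b₀, hb₀, h14⟩ := exists_polar_ne (nd_inf_hperp hA h13 hy hy') (by omega)
      exact lam_hyp hT hx1 h11 h12 (fun a ha b hb => h5 _ (h6 ha.1) _ (h6 hb.1)) hy hy' h13 ha₀
        hb₀ h14 h10
    · refine lam_aniso hT hx1 h11 h12 hA (by omega) (fun a ha h13 => by_contra fun h14 => ?_)
        (fun a ha b hb h13 h14 => (hP _).2 ⟨refl_mul_refl_mem_commutator hQ h13 h14, ?_⟩) h10
      · have h15 := ts_add hQ h h' hv (ts_span_pair hx1 h13 (h11 a ha))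
          (by simp [Submodule.span_le, Set.insert_subset_iff, hx.1, hx.2, ha.1.1, ha.1.2])
        rw [(h9.isLine ha.2 h13 h14).finrank_span] at h15
        omega
      · simp [O.mul_apply, refl_apply_of_perp, hp (h6 ha.1), hp (h6 hb.1)]
  intro g hg
  obtain ⟨hg, h10, h11, h12⟩ := (hP g).1 hg
  have h13 : polar Q v (g.1 v') = 1 := by rw [← h12, O.map_polar, h'.polar_eq]
  have h14 := eich_map_explicit hq (x := g.1 v') (y := v') (by simp [h'.right]) h'.right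
    (by simp [h13]) (by simp [h'.polar_eq])
  simp only [h13, h'.polar_eq, inv_one, one_smul, div_one] at h14
  have h15 : g.1 v' - v' ∈ hperp Q e f ⊓ perp Q (F ∙ v) :=
    ⟨sub_mem (by rw [mem_hperp, ← h10, ← h11, O.map_polar, O.map_polar]; exact mem_hperp.1 hv') hv',
      mem_perp_singleton.2 (by simp [h13, h'.polar_eq])⟩
  obtain ⟨-, h16, h17, h18⟩ := (hP _).1 (h5 v ⟨hv, mem_perp_singleton.2 h'.polar_left⟩ _ h15)
  refine (T.mul_mem_cancel_left (h8 _ h15)).1 (mem_of_fixer hQ hE hU (by omega) ?_ h9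
    (mul_mem (eich_mem_commutator hQ hE _ _) hg) ?_)
  · rcases hc with hc | hc | hc
    · exact not_exc_of_card (Or.inl (by omega))
    · exact not_exc_of_five_le (by omega)
    rintro ⟨-, -, Y, hY, h19⟩
    have := ts_add hQ h h' hv (Y := Y.map (Submodule.subtype _))
      (by rintro _ ⟨y, hy, rfl⟩; exact hY y hy) (Submodule.map_subtype_le _ _)
    rw [Submodule.finrank_map_subtype_eq] at this
    omega
  · rw [perp_inf hQ, hperp, hperp, perp_perp hQ, perp_perp hQ, ← Submodule.span_union,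
      mem_fixer_span]
    simp [O.mul_apply, *]

end Cfsg.Lib.RepDeg
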