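import Cfsg.Agent.Lib.RepDeg.ODich
import Cfsg.Agent.Lib.Orth.Klein
import Cfsg.Agent.Lib.Char.Rep
import Cfsg.Agent.S2332

/-!
# The minimal degrees of the orthogonal groups `Ω(Q)`
-/

namespace Cfsg.Lib.RepDeg

open QuadraticMap Module Cfsg.Lib.Orth Cfsg.Lib.Sz Cfsg.Lib.CharDeg

set_option linter.unusedSectionVars false

universe u v

theorem IsUn.le_finrank {G M : Type*} [Group G] [NormedAddCommGroup M] [InnerProductSpace ℂ M]
    [FiniteDimensional ℂ M] {ρ : G →* End ℂ M} (hρ : IsUn ρ) (h1 : ∃ g, ρ g ≠ 1)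
    (hG : commutator G = ⊤) {d : ℕ} (hd : ∀ k (σ : Representation ℂ G (Fin k → ℂ)),
      σ.IsIrreducible → 2 ≤ k → d ≤ k) : d ≤ finrank ℂ M := by
  have h2 := hρ.orth_mem (N := ⊤) fun _ _ _ => trivial
  have : Nontrivial ↥((⊤ ⊓ fx ρ)ᗮ ⊓ ⊤) := Submodule.nontrivial_iff_ne_bot.2 fun e => by
    rw [inf_top_eq, top_inf_eq, Submodule.orthogonal_eq_bot_iff] at e
    obtain ⟨g, hg⟩ := h1
    exact hg (LinearMap.ext fun y => mem_fx.1 (e.ge trivial) g)
  obtain ⟨U, hU⟩ := Char.exists_irreducible_subrep (RepDeg.sub ρ _ h2)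
  have h3 := Char.finrank_pos_of_isIrreducible U.toRepresentation
  refine (hd _ _ (Char.isIrreducible_of_equiv (Char.transportEquiv U.toRepresentation
    (Module.finBasis ℂ U.toSubmodule).equivFun)) (by_contra fun h4 => ?_)).trans
    (U.toSubmodule.finrank_le.trans (Submodule.finrank_le _))
  obtain ⟨l, hl, -⟩ := Char.exists_hom_of_finrank_eq_one U.toRepresentation (by omega)
  obtain ⟨y, hy⟩ := Module.finrank_pos_iff_exists_ne_zero.1 h3
  refine hy (Subtype.ext (Subtype.ext (inner_self_eq_zero (𝕜 := ℂ).1 (y.1.2.1 _ ⟨trivial,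
    mem_fx.2 fun g => ?_⟩))))
  have h5 := LinearMap.congr_fun (hl g) y
  rw [show l g = 1 from Abelianization.commutator_subset_ker l (hG.ge trivial)] at h5
  exact congrArg (fun z => (z.1.1 : M)) (h5.trans (show _ = y by simp))

theorem ar_odd {q x : ℤ} (hq : 4 ≤ q) (hx : q ≤ x) :
    x ^ 2 * q ^ 2 - 1 ≤ (q ^ 2 - 1) * (2 * (x ^ 2 - x)) := by
  obtain ⟨a, rfl⟩ := Int.le.dest hq
  obtain ⟨y, rfl⟩ := Int.le.dest hx
  rw [← sub_nonneg]; ring_nf; positivity

theorem ar_plus {q x : ℤ} (hq : 4 ≤ q) (hx : q ≤ x) :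
    (x * q ^ 2 - 1) * (x * q + q) ≤ (q ^ 2 - 1) * (2 * (x ^ 2 * q - x)) := by
  obtain ⟨a, rfl⟩ := Int.le.dest hq
  obtain ⟨y, rfl⟩ := Int.le.dest hx
  rw [← sub_nonneg]; ring_nf; positivity

theorem ar_minus {q x : ℤ} (hq : 2 ≤ q) (hx : q ^ 2 ≤ x) :
    (x * q ^ 2 + 1) * (x * q - q) ≤ (q ^ 2 - 1) * (2 * (x ^ 2 * q + x - x * q - 1)) := by
  obtain ⟨a, rfl⟩ := Int.le.dest hq
  obtain ⟨y, rfl⟩ := Int.le.dest hx
  rw [← sub_nonneg]; ring_nf; positivity

variable {F : Type*} [Field F] [Finite F] {ψ : AddChar F ℂ}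

section

variable {V : Type*} [AddCommGroup V] [Module F V] {Q : QuadraticForm F V} [FiniteDimensional F V]
  {M : Type*} [NormedAddCommGroup M] [InnerProductSpace ℂ M] [FiniteDimensional ℂ M]
  {ρ : eichGroup Q →* End ℂ M} {e f : V}

theorem Crit.step (hQ : ND Q) (hρ : IsUn ρ) (hψ : ψ ≠ 1) (h : IsHyp Q e f) (hc : Crit ρ ψ)
    (h5 : 5 ≤ finrank F V) (hok : ∀ {U : Submodule F (hperp Q e f)},
      ND ((Q.restrict _).restrict U) → finrank F U + 4 = finrank F V →
      wittIndex ((Q.restrict _).restrict U) + 2 = wittIndex Q → Ok ((Q.restrict _).restrict U)) :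
    cnt (Q.restrict (hperp Q e f)) 0 +
      finrank ℂ ↥((WS ρ ψ e 0 ⊓ fx (ρ.comp (lev h)))ᗮ ⊓ WS ρ ψ e 0) ≤ finrank ℂ M := by
  have h1 := h.finrank_hperp hQ
  have h2 := h.wittIndex_hperp hQ
  obtain ⟨w, w', h'⟩ := exists_isHyp_of_three_le (h.nd_hperp hQ) (by omega)
  have h3 := h'.finrank_hperp (h.nd_hperp hQ)
  have h4 := h'.wittIndex_hperp (h.nd_hperp hQ)
  have := hc.add_le hQ hρ hψ h h' (by omega) (hok (h'.nd_hperp (h.nd_hperp hQ)) (by omega)
    (by omega)) (J := Unit) (v := fun _ => w) (fun _ => ⟨h'.left, h'.ne_zero⟩) fun _ _ _ _ => rfl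
  rw [Nat.card_unique] at this
  omega

theorem plus_six (hQ : ND Q) (h6 : finrank F V = 6) (hw : wittIndex Q = 3) (h3 : 3 < Nat.card F)
    (hρ : IsUn ρ) (h1 : ∃ g, ρ g ≠ 1) :
    Nat.card F ^ 3 + Nat.card F ^ 2 + Nat.card F ≤ finrank ℂ M := by
  classical
  have := Fintype.ofFinite F
  obtain ⟨φ, hφ⟩ := equivalent_iff.1 (equivalent_qPlus hQ (m := 3) h6 hw.ge).symm
  have h2 : ∀ g, g ∈ eichGroup Q ↔ g ∈ ((O.congrI φ hφ : _ →* O Q).comp (klein F)).range := by
    rw [← comm_eq hQ (by omega), MonoidHom.range_comp, range_klein, map_commutator_equiv]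
    simp
  obtain ⟨g, hg⟩ := h1
  obtain ⟨k, hk⟩ := (h2 g).1 g.2
  refine (hρ.comp (((O.congrI φ hφ : _ →* O Q).comp (klein F)).codRestrict _
    fun g => (h2 _).2 ⟨g, rfl⟩)).le_finrank ⟨k, fun e => hg (by
      rwa [← show MonoidHom.codRestrict _ _ _ k = g from Subtype.ext hk])⟩
    (Linear.commutator_SL_eq_top (by simp)) fun k σ hσ hk => le_trans ?_
      ((Agent.S2332.result 4 (by omega) (by
        simp only [← Nat.card_eq_fintype_card, ne_eq, Prod.mk.injEq]; omega)).1 k σ hσ hk)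
  rw [← Nat.card_eq_fintype_card, Nat.le_div_iff_mul_le (by omega)]
  obtain ⟨r, hr⟩ := Nat.exists_eq_add_of_le' (show 1 ≤ Nat.card F by omega)
  rw [hr, Nat.add_sub_cancel]
  exact Nat.le_sub_of_add_le (le_of_eq (by ring))

end

theorem crit_odd (hψ : ψ ≠ 1) (h3 : 3 < Nat.card F) (m : ℕ) : ∀ {V : Type u} [AddCommGroup V]
    [Module F V] {Q : QuadraticForm F V} [FiniteDimensional F V] {M : Type v}
    [NormedAddCommGroup M] [InnerProductSpace ℂ M] [FiniteDimensional ℂ M]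
    {ρ : eichGroup Q →* End ℂ M}, ND Q → IsUn ρ → finrank F V = 2 * (m + 2) + 1 → Crit ρ ψ →
    (Nat.card F : ℤ) ^ (2 * (m + 2)) - 1 ≤ (Nat.card F ^ 2 - 1) * finrank ℂ M := by
  have hq : (0 : ℤ) ≤ Nat.card F ^ 2 - 1 := by
    have : (3 : ℤ) < Nat.card F := by exact_mod_cast h3
    nlinarith
  induction m with
  | zero =>
    intro V _ _ Q _ M _ _ _ ρ hQ hρ hV hc
    obtain ⟨e, f, h⟩ := exists_isHyp_of_three_le hQ (by omega)
    have h1 := h.finrank_hperp hQ
    have hW := h.nd_hperp hQ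
    obtain ⟨w, w', h'⟩ := exists_isHyp_of_three_le hW (by omega)
    have h2 := h'.finrank_hperp hW
    obtain ⟨t, ht⟩ := exists_not_isSquare (two_ne_zero_of_odd_finrank hQ (by rw [hV]; decide))
    have ht0 := ne_zero_of_not_isSquare ht
    have h4 := hc.add_le hQ hρ hψ h h' (by omega) (ok_odd (m := 0) (h'.nd_hperp hW) (by omega))
      (J := Bool) (v := fun b => if b then t • w else w) (by
        rintro (_ | _)
        exacts [⟨h'.left, h'.ne_zero⟩, ⟨((Q.restrict _).map_smul t w).trans (by simp [h'.left]),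
          smul_ne_zero ht0 h'.ne_zero⟩]) (by
        rintro (_ | _) (_ | _) g hg
        exacts [rfl, (ht (isSquare_of_three hW (by omega) g.2 h'.left h'.ne_zero hg)).elim,
          (ht (isSquare_of_three hW (by omega) g⁻¹.2 h'.left h'.ne_zero
            ((O.inv_apply_eq _).2 hg.symm))).elim, rfl])
    rw [cnt_odd_zero hW (m := 1) (by omega), Nat.card_eq_fintype_card (α := Bool),
      Fintype.card_bool] at h4
    rw [mul_one] at h4
    have h5 : (Nat.card F : ℤ) ^ 2 + 1 ≤ finrank ℂ M := by exact_mod_cast (by omega)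
    exact le_of_eq_of_le (by ring) (mul_le_mul_of_nonneg_left h5 hq)
  | succ m ih =>
    intro V _ _ Q _ M _ _ _ ρ hQ hρ hV hc
    obtain ⟨e, f, h⟩ := exists_isHyp_of_three_le hQ (by omega)
    have h1 := h.finrank_hperp hQ
    have h2 := ih (h.nd_hperp hQ) ((hρ.comp _).sub _) (by omega) (hc.inherit hQ hρ hψ h (by omega))
    have h4 := hc.step hQ hρ hψ h (by omega) fun hU h4 _ => ok_odd (m := m + 1) hU (by omega)
    rw [cnt_odd_zero (h.nd_hperp hQ) (m := m + 2) (by omega)] at h4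
    zify at h4
    rw [show 2 * (m + 1 + 2) = 2 * (m + 2) + 2 by ring, pow_add]
    nlinarith

theorem crit_minus (hψ : ψ ≠ 1) (m : ℕ) : ∀ {V : Type u} [AddCommGroup V]
    [Module F V] {Q : QuadraticForm F V} [FiniteDimensional F V] {M : Type v}
    [NormedAddCommGroup M] [InnerProductSpace ℂ M] [FiniteDimensional ℂ M]
    {ρ : eichGroup Q →* End ℂ M}, ND Q → IsUn ρ → finrank F V = 2 * (m + 3) →
    wittIndex Q = m + 2 → Crit ρ ψ → ((Nat.card F : ℤ) ^ (m + 3) + 1) *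
      (Nat.card F ^ (m + 2) - Nat.card F) ≤ (Nat.card F ^ 2 - 1) * finrank ℂ M := by
  have hq : (0 : ℤ) ≤ Nat.card F ^ 2 - 1 := by
    have : (1 : ℤ) < Nat.card F := by exact_mod_cast Finite.one_lt_card
    nlinarith
  induction m with
  | zero =>
    intro V _ _ Q _ M _ _ _ ρ hQ hρ hV hw hc
    obtain ⟨e, f, h⟩ := exists_isHyp_of_three_le hQ (by omega)
    have h1 := h.finrank_hperp hQ
    have h2 := h.wittIndex_hperp hQ
    have h4 := hc.step hQ hρ hψ h (by omega) fun hU h4 _ =>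
      ok_minus (m := 0) hU (by omega) (by omega)
    have h5 := cnt_minus_zero (h.nd_hperp hQ) (m := 1) (by omega) (by omega)
    norm_num at h5
    have h6 : (Nat.card F : ℤ) ^ 3 + Nat.card F ≤ finrank ℂ M + Nat.card F ^ 2 := by
      exact_mod_cast (by omega)
    exact le_of_eq_of_le (by ring) (mul_le_mul_of_nonneg_left (sub_le_iff_le_add.2 h6) hq)
  | succ m ih =>
    intro V _ _ Q _ M _ _ _ ρ hQ hρ hV hw hc
    obtain ⟨e, f, h⟩ := exists_isHyp_of_three_le hQ (by omega)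
    have h1 := h.finrank_hperp hQ
    have h3 := h.wittIndex_hperp hQ
    have h2 := ih (h.nd_hperp hQ) ((hρ.comp _).sub _) (by omega) (by omega)
      (hc.inherit hQ hρ hψ h (by omega))
    have h4 := hc.step hQ hρ hψ h (by omega) fun hU h4 _ =>
      ok_minus (m := m + 1) hU (by omega) (by omega)
    have h5 := cnt_minus_zero (h.nd_hperp hQ) (m := m + 2) (by omega) (by omega)
    zify at h4 h5
    have h6 := mul_le_mul_of_nonneg_left h4 hq
    have h7 := congrArg (((Nat.card F : ℤ) ^ 2 - 1) * ·) h5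
    simp only [pow_succ, pow_mul', mul_add 2] at h2 h6 h7 ⊢
    nlinarith

theorem min_odd {V : Type u} [AddCommGroup V] [Module F V] {Q : QuadraticForm F V}
    [FiniteDimensional F V] {M : Type v} [NormedAddCommGroup M] [InnerProductSpace ℂ M]
    [FiniteDimensional ℂ M] {ρ : eichGroup Q →* End ℂ M} (h3 : 3 < Nat.card F) {m : ℕ} (hQ : ND Q)
    (hρ : IsUn ρ) (hV : finrank F V = 2 * (m + 3) + 1) (h1 : ∃ g, ρ g ≠ 1) :
    (Nat.card F : ℤ) ^ (2 * (m + 3)) - 1 ≤ (Nat.card F ^ 2 - 1) * finrank ℂ M := by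
  obtain ⟨ψ, hψ⟩ := exists_addChar_ne_one F
  obtain ⟨e, f, h⟩ := exists_isHyp_of_three_le hQ (by omega)
  have h2 := h.finrank_hperp hQ
  have hW := h.nd_hperp hQ
  have h4 : Nat.card F ^ (m + 2) ≤ Nat.card F ^ (2 * (m + 2)) :=
    Nat.pow_le_pow_right (by omega) (by omega)
  have h5 : 0 < Nat.card F ^ (m + 2) := by positivity
  rcases dichotomy hQ hρ hψ h (by omega) (Or.inl h3) h1
    (b := Nat.card F ^ (2 * (m + 2)) - Nat.card F ^ (m + 2))
    (by rw [cnt_odd_zero hW (m := m + 2) (by omega)]; omega) (fun c _ => by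
      obtain ⟨d, -, hd⟩ := exists_equivalent_odd hW (m := m + 2) (by omega)
      have := cnt_qPlus_prod_qOne (m + 2) d c
      rw [cnt_congr hd]
      omega) with h6 | h6 | h6
  · zify [h4] at h6
    have hq : (4 : ℤ) ≤ Nat.card F := by exact_mod_cast h3
    have h7 : (Nat.card F : ℤ) ^ 1 ≤ Nat.card F ^ (m + 2) := pow_le_pow_right₀ (by omega) (by omega)
    have h8 := mul_le_mul_of_nonneg_left h6 (show (0 : ℤ) ≤ Nat.card F ^ 2 - 1 by nlinarith)
    rw [show 2 * (m + 3) = 2 * (m + 2) + 2 by ring, pow_add]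
    rw [pow_mul'] at h8 ⊢
    exact (ar_odd hq ((pow_one _).ge.trans h7)).trans h8
  · exact crit_odd hψ h3 (m + 1) hQ hρ hV h6
  · omega

theorem min_plus (h3 : 3 < Nat.card F) (m : ℕ) : ∀ {V : Type u} [AddCommGroup V]
    [Module F V] {Q : QuadraticForm F V} [FiniteDimensional F V] {M : Type v}
    [NormedAddCommGroup M] [InnerProductSpace ℂ M] [FiniteDimensional ℂ M]
    {ρ : eichGroup Q →* End ℂ M}, ND Q → IsUn ρ → finrank F V = 2 * (m + 3) →
    wittIndex Q = m + 3 → (∃ g, ρ g ≠ 1) → ((Nat.card F : ℤ) ^ (m + 3) - 1) *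
      (Nat.card F ^ (m + 2) + Nat.card F) ≤ (Nat.card F ^ 2 - 1) * finrank ℂ M := by
  have hq : (4 : ℤ) ≤ Nat.card F := by exact_mod_cast h3
  have hq' : (0 : ℤ) ≤ Nat.card F ^ 2 - 1 := by nlinarith
  obtain ⟨ψ, hψ⟩ := exists_addChar_ne_one F
  induction m with
  | zero =>
    intro V _ _ Q _ M _ _ _ ρ hQ hρ hV hw h1
    have h2 := plus_six hQ hV hw h3 hρ h1
    zify at h2
    exact le_of_eq_of_le (by ring) (mul_le_mul_of_nonneg_left h2 hq')
  | succ m ih =>
    intro V _ _ Q _ M _ _ _ ρ hQ hρ hV hw h1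
    obtain ⟨e, f, h⟩ := exists_isHyp_of_three_le hQ (by omega)
    have h2 := h.finrank_hperp hQ
    have h4 := h.wittIndex_hperp hQ
    have hW := h.nd_hperp hQ
    have h5 := cnt_plus_zero hW (m := m + 2) (by omega) (by omega)
    have h6 := cnt_plus_ne hW (m := m + 2) (by omega) (by omega) one_ne_zero
    have h7 : 0 < Nat.card F ^ (m + 2 + 1) := by positivity
    rcases dichotomy hQ hρ hψ h (by omega) (Or.inl h3) h1 (b := cnt (Q.restrict (hperp Q e f)) 1)
      (by omega) (fun c hc => (cnt_eq_of_even hW ⟨m + 3, by omega⟩ hc).ge) with h8 | h8 | h8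
    · zify at h6 h8
      have h9 : (Nat.card F : ℤ) ^ 1 ≤ Nat.card F ^ (m + 2) :=
        pow_le_pow_right₀ (by omega) (by omega)
      have h10 := mul_le_mul_of_nonneg_left h8 hq'
      rw [eq_sub_of_add_eq h6, pow_succ _ (2 * _), pow_mul'] at h10
      exact le_of_eq_of_le (by ring) ((ar_plus hq ((pow_one _).ge.trans h9)).trans h10)
    · have h9 := ih hW ((hρ.comp _).sub _) (by omega) (by omega)
        ((h8.inherit hQ hρ hψ h (by omega)).ne_one hψ hW (by omega))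
      have h10 := h8.step hQ hρ hψ h (by omega) fun hU h4 _ =>
        ok_plus (m := m + 1) hU (by omega) (by omega) h3
      zify at h5 h10
      have h11 := mul_le_mul_of_nonneg_left h10 hq'
      have h12 := congrArg (((Nat.card F : ℤ) ^ 2 - 1) * ·) h5
      simp only [pow_succ, pow_mul', mul_add 2] at h9 h11 h12 ⊢
      nlinarith
    · omega

theorem min_minus (m : ℕ) : ∀ {V : Type u} [AddCommGroup V]
    [Module F V] {Q : QuadraticForm F V} [FiniteDimensional F V] {M : Type v}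
    [NormedAddCommGroup M] [InnerProductSpace ℂ M] [FiniteDimensional ℂ M]
    {ρ : eichGroup Q →* End ℂ M}, ND Q → IsUn ρ → finrank F V = 2 * (m + 4) →
    wittIndex Q = m + 3 → (∃ g, ρ g ≠ 1) → ((Nat.card F : ℤ) ^ (m + 4) + 1) *
      (Nat.card F ^ (m + 3) - Nat.card F) ≤ (Nat.card F ^ 2 - 1) * finrank ℂ M := by
  have hq : (2 : ℤ) ≤ Nat.card F := by exact_mod_cast Finite.one_lt_card
  have hq' : (0 : ℤ) ≤ Nat.card F ^ 2 - 1 := by nlinarith
  obtain ⟨ψ, hψ⟩ := exists_addChar_ne_one F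
  induction m using Nat.strong_induction_on with
  | _ m ih =>
  intro V _ _ Q _ M _ _ _ ρ hQ hρ hV hw h1
  obtain ⟨e, f, h⟩ := exists_isHyp_of_three_le hQ (by omega)
  have h2 := h.finrank_hperp hQ
  have h4 := h.wittIndex_hperp hQ
  have hW := h.nd_hperp hQ
  have h5 := cnt_minus_zero hW (m := m + 2) (by omega) (by omega)
  have h6 := fun c => cnt_minus_ne hW (m := m + 2) (by omega) (by omega) (c := c)
  have h7 : Nat.card F ^ (m + 2 + 1) ≤ Nat.card F ^ (2 * (m + 2) + 1) :=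
    Nat.pow_le_pow_right Nat.card_pos (by omega)
  have h7' : 0 < Nat.card F ^ (m + 2) := Nat.pow_pos Nat.card_pos
  have h9 : (Nat.card F : ℤ) ^ 2 ≤ Nat.card F ^ (m + 2) := pow_le_pow_right₀ (by omega) (by omega)
  rcases dichotomy hQ hρ hψ h (by omega) (by omega) h1 (b := cnt (Q.restrict (hperp Q e f)) 0 - 1)
    (by omega) (fun c hc => by rw [h6 c hc]; omega) with h8 | h8 | ⟨-, c, hc, h8, h10⟩
  · zify [show 1 ≤ cnt (Q.restrict (hperp Q e f)) 0 by omega] at h5 h8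
    have h10 := mul_le_mul_of_nonneg_left h8 hq'
    rw [eq_sub_of_add_eq h5, pow_succ _ (2 * _), pow_mul', pow_succ _ (m + 2)] at h10
    exact le_of_eq_of_le (by ring) ((ar_minus hq h9).trans h10)
  · exact crit_minus hψ (m + 1) hQ hρ hV hw h8
  rw [h6 c hc] at h8
  zify at h8
  have h11 := mul_le_mul_of_nonneg_left h8 hq'
  rcases m with _ | m
  · have : (0 : ℤ) ≤ finrank ℂ (WS ρ ψ e 0) := by positivity
    refine le_trans (le_of_eq_of_le (by ring) (mul_le_mul_of_nonneg_left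
      (show (Nat.card F : ℤ) ^ 5 + Nat.card F ≤ _ from ?_) hq')) h11
    norm_num
    nlinarith
  obtain ⟨g, y, hy, h12⟩ := h10 (by omega)
  have h13 := ih m (by omega) hW ((hρ.comp _).sub (lev_mem_WS (ψ := ψ) h)) (by omega) (by omega)
    ⟨g, sub_ne_one _ hy h12⟩
  have h14 := mul_nonneg hq' (show (0 : ℤ) ≤ Nat.card F ^ (m + 4) by positivity)
  simp only [pow_succ, pow_mul', mul_add 2] at h11 h13 h14 ⊢
  nlinarith

theorem le_of_omega {ι : Type} [Fintype ι] [DecidableEq ι] {Q : QuadraticForm F (ι → F)}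
    (hQ : ND Q) (h5 : 5 ≤ Fintype.card ι) {d : ℕ → Prop}
    (h : ∀ (M : Type) [NormedAddCommGroup M] [InnerProductSpace ℂ M] [FiniteDimensional ℂ M]
      (ρ : eichGroup Q →* End ℂ M), IsUn ρ → (∃ g, ρ g ≠ 1) → d (finrank ℂ M)) {k : ℕ}
    (ρ : Representation ℂ (Omega F Q) (Fin k → ℂ)) (hρ : ρ.IsIrreducible) (hk : 2 ≤ k) : d k := by
  let φ : Omega F Q ≃* eichGroup Q := (commutatorCongr (isoEquiv Q)).trans
    (MulEquiv.subgroupCongr (comm_eq hQ (by simpa)))
  obtain ⟨g, hg⟩ := exists_ne_one ρ hρ (by simpa)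
  simpa using le_finrank_of_unitary h (MonoidHom.comp ρ φ.symm.toMonoidHom) ⟨φ g, by simpa⟩

end Cfsg.Lib.RepDeg
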