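import Cfsg.Agent.Lib.RepDeg.OTrick

/-!
# The inductive step for the minimal degree of `Ω(Q)`
-/

namespace Cfsg.Lib.RepDeg

open QuadraticMap Module Cfsg.Lib.Orth Cfsg.Lib.Sz Cfsg.Lib.CharDeg
open scoped InnerProductSpace ComplexConjugate

set_option linter.unusedSectionVars false

variable {F V : Type*} [Field F] [AddCommGroup V] [Module F V] {Q : QuadraticForm F V}
  [Finite F] [FiniteDimensional F V]
  {M : Type*} [NormedAddCommGroup M] [InnerProductSpace ℂ M] [FiniteDimensional ℂ M]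
  {ρ : eichGroup Q →* End ℂ M} {ψ : AddChar F ℂ} {e f w w' : V}

theorem comm_eq (hQ : ND Q) (h5 : 5 ≤ finrank F V) : commutator (O Q) = eichGroup Q :=
  commutator_eq_eichGroup' hQ (not_exc_of_five_le h5) (by omega)

theorem finrank_WS_le (hQ : ND Q) (h6 : 6 ≤ finrank F V) {v e' f' v' : V} (h : IsHyp Q e f)
    (h' : IsHyp Q e' f') (hv : v ∈ hperp Q e f) (hv' : v' ∈ hperp Q e' f') (h0 : v ≠ 0)
    (h0' : v' ≠ 0) {t : F} (ht : t ≠ 0) (hq : Q v' = t ^ 2 * Q v) :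
    finrank ℂ (WS ρ ψ e v) ≤ finrank ℂ (WS ρ ψ e' v') := by
  obtain ⟨g, hg, h1, -, h2⟩ := exists_omega_triple hQ h6 (h.smul ht) h' (v := t • v)
    (by simp [mem_hperp, mem_hperp.1 hv]) hv' (smul_ne_zero ht h0) h0' (by rw [hq, Q_smul])
  rw [comm_eq hQ (by omega)] at hg
  refine finrank_le_of_map ρ ⟨g, hg⟩ fun y hy => ?_
  simpa [h1, h2] using WS_map ⟨g, hg⟩ (WS_smul h.left ht hy)

theorem exists_WS_ne_bot (hQ : ND Q) (h6 : 6 ≤ finrank F V) (hψ : ψ ≠ 1) (hρ : ∃ g, ρ g ≠ 1)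
    (h : IsHyp Q e f) : ∃ v ∈ hperp Q e f, v ≠ 0 ∧ WS ρ ψ e v ≠ ⊥ := by
  by_contra! h1
  obtain ⟨g, hg⟩ := hρ
  have : Finite V := Module.finite_of_finite F
  obtain ⟨k, hk, h2⟩ := eichGroup_le (K := ρ.ker.map (Subgroup.subtype _)) (fun x a hx ha => by
    refine ⟨E Q x a, LinearMap.ext fun y => ?_, rfl⟩
    rcases eq_or_ne x 0 with rfl | h0
    · rw [show E Q 0 a = 1 from Subtype.ext (eich_zero_left a), map_one]
    obtain ⟨x', h'⟩ := exists_isHyp hQ hx h0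
    have := Fintype.ofFinite (hperp Q x x')
    obtain ⟨g, h2, h3⟩ := witt_hyp hQ h' h
    have hc := cpl_left hQ h'
    simpa using hc.induction (ρ := ρ) hψ (N := WS ρ ψ x 0) (s := y) (fun v hv h4 => by
      rcases eq_or_ne v 0 with rfl | h5
      · exact hc.pr_mem (by simp) y
      have h6 : g.1 v ∈ hperp Q e f := by simpa [mem_hperp, ← h2, ← h3] using hv
      have := finrank_WS_le (ρ := ρ) (ψ := ψ) hQ ‹_› h' h hv h6 h5 (O.apply_ne_zero g h5)
        one_ne_zero (by simp)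
      rw [h1 _ h6 (O.apply_ne_zero g h5), finrank_bot, Nat.le_zero, Submodule.finrank_eq_zero] at this
      exact (h4 (this.le (hc.pr_mem (hc.perp v hv) y))).elim) a ha) g.2
  exact hg (by rwa [← show k = g from Subtype.ext h2])

theorem Cpl.perp_of_eigen {W : Submodule F V} [Fintype W] (h : Cpl Q e W) (hψ : ψ ≠ 1) {v u b : V}
    (hv : v ∈ W) {y : M} (h0 : pr ρ ψ e W v y ≠ 0) (hb : polar Q e b = 0)
    (hy : ∀ c : F, ρ (E Q e (c • b)) y = ψ (polar Q (c • b) u) • y) : polar Q b v = polar Q b u :=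
  perp_of_fixed hψ (h.pr_mem (h.perp v hv) y) h0 hb fun c =>
    End.mem_eigenspace_iff.1 (Cpl.pr_mem_of (N := End.eigenspace (ρ (E Q e (c • b))) _)
      (fun a ha y hy => End.mem_eigenspace_iff.2 (by
        have h1 : polar Q e (c • b) = 0 := by simp [hb]
        rw [← End.mul_apply, ← map_mul, E_add h.sing h1 (h.perp a ha), add_comm,
          ← E_add h.sing (h.perp a ha) h1, map_mul, End.mul_apply, End.mem_eigenspace_iff.1 hy,
          map_smul])) _ (End.mem_eigenspace_iff.2 (hy c)))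

/-- Vectors fixed by the Eichler maps at `x` in directions orthogonal to `z`. -/
def RS (ρ : eichGroup Q →* End ℂ M) (x z : V) : Submodule ℂ M where
  carrier := {y | ∀ a, polar Q x a = 0 → polar Q z a = 0 → ρ (E Q x a) y = y}
  add_mem' h h' a ha hb := by rw [map_add, h a ha hb, h' a ha hb]
  zero_mem' a _ _ := by simp
  smul_mem' c v h a ha hb := by rw [map_smul, h a ha hb]

variable (hQ : ND Q) (hρ : IsUn ρ) (hψ : ψ ≠ 1) (h : IsHyp Q e f) (h' : IsHyp Q w w')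
  (hw : w ∈ hperp Q e f) (hw' : w' ∈ hperp Q e f)

include hw hw' in
theorem left_mem_hperp : e ∈ hperp Q w w' := mem_hperp.2
  ⟨(polar_comm ..).trans (mem_hperp.1 hw).1, (polar_comm ..).trans (mem_hperp.1 hw').1⟩

include hw hw' in
theorem right_mem_hperp : f ∈ hperp Q w w' := mem_hperp.2
  ⟨(polar_comm ..).trans (mem_hperp.1 hw).2, (polar_comm ..).trans (mem_hperp.1 hw').2⟩

include h h' hw hw'

theorem mem_RS {y : M} (h1 : ∀ c : F, ρ (E Q e (c • w)) y = y)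
    (h2 : ∀ a ∈ hperp Q e f ⊓ hperp Q w w', ρ (E Q w a) y = y) : y ∈ RS ρ w e := fun a ha hb => by
  have he := mem_hperp.1 (left_mem_hperp hw hw')
  have h3 : a = polar Q f a • e + hproj Q e f a := by simp [hproj, hb]
  have h4 : polar Q w (hproj Q e f a) = 0 := by simp [hproj, hb, ha, he.1]
  rw [h3, ← E_add h'.left (by simp [he.1]) h4, E_swap h.left h'.left (mem_hperp.1 hw).1,
    ← show E Q w (hproj Q w w' _) = E Q w _ from Subtype.ext (h'.eich_hproj h4), map_mul,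
    End.mul_apply,
    h2 (hproj Q w w' _) ⟨sub_mem (sub_mem (h.hproj_mem a) (Submodule.smul_mem _ _ hw))
      (Submodule.smul_mem _ _ hw'), h'.hproj_mem _⟩, h1]

include hQ hρ hψ

theorem exists_nontriv (h6 : 6 ≤ finrank F V)
    (h1 : ∀ c : F, c ≠ 0 → ∀ a ∈ hperp Q e f ⊓ hperp Q w w', ∀ y ∈ WS ρ ψ e (c • w),
      ρ (E Q w a) y = y) {u : V} (hu : u ∈ hperp Q e f ⊓ hperp Q w w') (hu0 : u ≠ 0) {y : M}
    (hy : y ∈ WS ρ ψ e u) (hy0 : y ≠ 0)
    (h2 : ∀ a ∈ hperp Q e f ⊓ hperp Q w w', polar Q a u = 0 → ρ (E Q w a) y = y) :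
    ∃ a ∈ hperp Q e f ⊓ hperp Q w w', ∃ y ∈ WS ρ ψ e 0, ρ (E Q w a) y ≠ y := by
  by_contra! h3
  have : Finite V := Module.finite_of_finite F
  have := Fintype.ofFinite (hperp Q e f)
  have := Fintype.ofFinite ↥(hperp Q e f ⊓ hperp Q w w')
  have hc := cpl_left hQ h
  have he := left_mem_hperp hw hw'
  obtain ⟨g, hg, h4, h5⟩ := exists_omega_swap hQ h6 h h' hw hw'
  rw [comm_eq hQ (by omega)] at hg
  have h7 := finrank_le_of_map ρ ⟨g, hg⟩ (N := RS ρ w e) (N' := RS ρ e w) fun y hy a ha hb => by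
    obtain ⟨a, rfl⟩ := g.1.surjective a
    rw [← h5, O.map_polar] at ha
    rw [← h4, O.map_polar] at hb
    rw [← End.mul_apply, ← map_mul, ← h5, ← conj_E ⟨g, hg⟩, map_mul, End.mul_apply, hy a ha hb]
  have h8 : ∀ v ∈ hperp Q e f, polar Q w v = 0 → ∀ y ∈ WS ρ ψ e v, ∀ c : F,
      ρ (E Q e (c • w)) y = y := fun v _ hv y hy c => by
    rw [hy _ (by simp [(mem_hperp.1 hw).1])]; simp [hv]
  refine (Submodule.finrank_lt_finrank_of_lt (lt_of_le_not_ge (fun y hy => ?_) fun h9 => ?_)).not_ge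
    h7
  · refine hc.induction (ρ := ρ) hψ fun v hv h9 => ?_
    have h10 : ∀ a, polar Q e a = 0 → polar Q w a = 0 → polar Q a v = 0 := fun a ha hb =>
      (hc.perp_of_eigen hψ (u := 0) hv h9 ha fun c => by
        simpa using hy _ (by simp [ha]) (by simp [hb])).trans (by simp)
    have h11 := h10 w (mem_hperp.1 hw).1 h'.polar_left
    have h12 := eq_comb hQ h' h he (right_mem_hperp hw hw') hv
      fun a ha => h10 a (mem_hperp.1 ha.2).1 (mem_hperp.1 ha.1).1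
    have h13 := hc.pr_mem (ρ := ρ) (ψ := ψ) (hc.perp v hv) y
    refine mem_RS h h' hw hw' (h8 v hv h11 _ h13) fun a ha => ?_
    generalize pr ρ ψ e (hperp Q e f) v y = z at h13
    rw [h12, h11, zero_smul, add_zero] at h13
    by_cases h14 : polar Q w' v = 0
    · exact h3 a ha _ (by simpa [h14] using h13)
    · exact h1 _ h14 a ha _ h13
  have h10 : ∀ a : ↥(hperp Q e f ⊓ hperp Q w w'),
      ρ (E Q w a) y ∈ WS ρ ψ e (u + polar Q a u • w) := fun a => by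
    have := WS_map (E Q w a) hy
    rwa [coe_E, eich_apply_of_perp h'.left (mem_hperp.1 a.2.2).1 (mem_hperp.1 he).1,
      eich_apply_of_perp h'.left (mem_hperp.1 a.2.2).1 (mem_hperp.1 hu.2).1, polar_comm Q _ e,
      (mem_hperp.1 a.2.1).1, zero_smul, add_zero] at this
  have h11 := h9 (mem_RS (y := ∑ a : ↥(hperp Q e f ⊓ hperp Q w w'), ρ (E Q w a) y) h h' hw hw'
    (fun c => by
      rw [map_sum]
      exact Finset.sum_congr rfl fun a _ => h8 _ (add_mem hu.1 (Submodule.smul_mem _ _ hw))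
        (by simp [(mem_hperp.1 hu.2).1, h'.left]) _ (h10 a) c) fun b hb => by
      rw [map_sum]
      exact Fintype.sum_equiv (Equiv.addLeft (⟨b, hb⟩ : ↥(hperp Q e f ⊓ hperp Q w w'))) _ _
        fun a => by
          rw [← End.mul_apply, ← map_mul, E_add h'.left (mem_hperp.1 hb.2).1 (mem_hperp.1 a.2.2).1]
          rfl)
  have h12 : ∑ a : ↥(hperp Q e f ⊓ hperp Q w w'), ρ (E Q w a) y ≠ 0 := fun h0 =>
    inner_sum_ne_zero hy0 (s := fun a : ↥(hperp Q e f ⊓ hperp Q w w') => ρ (E Q w a) y)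
      (fun a => by
        by_cases h12 : polar Q a u = 0
        · exact Or.inr (h2 a a.2 h12)
        · exact Or.inl (hc.inner_WS hρ hψ hu.1 (add_mem hu.1 (Submodule.smul_mem _ _ hw))
            (by simp [h12, h'.ne_zero]) hy (h10 a))) (i := 0) (by simp) (by rw [h0, inner_zero_right])
  obtain ⟨a, ha⟩ := (h.nd_inf hQ h' hw hw').exists_polar_ne (x := ⟨u, hu⟩) (by simpa using hu0)
  refine ha ((polar_comm ..).trans (eq_of_addChar hψ fun c => smul_left_injective ℂ h12 ?_))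
  have h13 : polar Q e (c • a.1) = 0 := by simp [(mem_hperp.1 a.2.1).1]
  simp only [zero_mul, AddChar.map_zero_eq_one, one_smul]
  refine Eq.trans ?_ (h11 _ h13 (by simp [(mem_hperp.1 a.2.2).1]))
  rw [map_sum, Finset.smul_sum]
  refine Finset.sum_congr rfl fun b _ => ?_
  rw [h10 b _ h13]
  simp [polar_comm Q a.1 w, (mem_hperp.1 a.2.2).1, mul_comm]

omit hρ in
theorem eq_add_smul [Fintype (hperp Q w w')] {u v : V} (hu : u ∈ hperp Q e f ⊓ hperp Q w w')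
    (hv : v ∈ hperp Q w w') {y : M} (hy : y ∈ WS ρ ψ e 0)
    (hy' : ∀ a ∈ hperp Q e f, polar Q w a = 0 → ρ (E Q w a) y = ψ (polar Q a u) • y)
    (h0 : pr ρ ψ w (hperp Q w w') v y ≠ 0) : ∃ c : F, v = u + c • e := by
  have hc := cpl_left hQ h'
  have he := left_mem_hperp hw hw'
  have h1 := eq_comb hQ h h' hw hw' (sub_mem hv hu.2) fun a ha => by
    rw [polar_sub_right, hc.perp_of_eigen hψ hv h0 (hc.perp a ha.2) fun c =>
      hy' _ (Submodule.smul_mem _ c ha.1) (by simp [hc.perp a ha.2]), sub_self]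
  have h2 : polar Q e v = polar Q e u := hc.perp_of_eigen hψ hv h0 (hc.perp e he) fun c => by
    rw [E_swap h.left h'.left (mem_hperp.1 hw).1, hy _ (by simp [(mem_hperp.1 hw).1])]
    simp [(mem_hperp.1 hu.1).1]
  rw [polar_sub_right Q e, h2, sub_self, zero_smul, add_zero] at h1
  exact ⟨_, eq_add_of_sub_eq' h1⟩

omit h' hw hw'

omit hρ in
theorem Crit.eq_zero (hc : Crit ρ ψ) {w w' u : hperp Q e f} (h' : IsHyp Q w.1 w'.1)
    (hu : u.1 ∈ hperp Q w.1 w'.1) (h0 : Q u ≠ 0) {y : M} (hy : y ∈ WS ρ ψ e 0)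
    (hy' : y ∈ WS (ρ.comp (lev h)) ψ w u) : y = 0 := by
  have : Finite V := Module.finite_of_finite F
  have := Fintype.ofFinite (hperp Q w.1 w'.1)
  have hd := cpl_left hQ h'
  refine hd.induction (ρ := ρ) hψ (N := ⊥) fun v hv h1 => ?_
  obtain ⟨c, rfl⟩ := eq_add_smul hQ hψ h h' w.2 w'.2 ⟨u.2, hu⟩ hv hy ((mem_WS_lev h).1 hy') h1
  rw [← hc.a _ _ _ h' hv (by rwa [Q_add_smul_of_singular h.left (mem_hperp.1 u.2).1])]
  exact hd.pr_mem (hd.perp _ hv) y

theorem Crit.exists_mem (hc : Crit ρ ψ) (h7 : 7 ≤ finrank F V) {w w' u : hperp Q e f}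
    (h' : IsHyp (Q.restrict (hperp Q e f)) w w') (hu : u ∈ hperp (Q.restrict (hperp Q e f)) w w')
    (hq : Q u = 0) (h0 : u ≠ 0) : ∃ y ∈ (WS ρ ψ e 0 ⊓ fx (ρ.comp (lev h)))ᗮ ⊓ WS ρ ψ e 0,
      y ∈ WS (ρ.comp (lev h)) ψ w u ∧ y ≠ 0 := by
  have : Finite V := Module.finite_of_finite F
  have := Fintype.ofFinite (hperp (Q.restrict (hperp Q e f)) w w')
  have hd := cpl_left (h.nd_hperp hQ) h'
  rw [isHyp_restrict] at h'
  have hu' := mem_hperp_restrict.1 hu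
  have hu0 : u.1 ≠ 0 := by simpa using h0
  have he := left_mem_hperp w.2 w'.2
  obtain ⟨y, hy, hy0⟩ := (Submodule.ne_bot_iff _).1 (hc.c e f u h u.2 hq hu0)
  have h1 : ∀ a ∈ hperp Q e f ⊓ hperp Q w.1 w'.1, ∀ v ∈ hperp Q e f, Q v = 0 → v ≠ 0 →
      polar Q w v = 0 → polar Q a v = 0 → ∀ y ∈ WS ρ ψ e v, ρ (E Q w a) y = y :=
    fun a ha v hv h1 h2 h3 h4 => hc.b e f v h hv h1 h2 _ (OMax.eich_apply_of_perp'
      (mem_hperp.1 he).1 ((polar_comm ..).trans (mem_hperp.1 ha.1).1))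
      (OMax.eich_apply_of_perp' (mem_hperp.1 (right_mem_hperp w.2 w'.2)).1
        ((polar_comm ..).trans (mem_hperp.1 ha.1).2)) (OMax.eich_apply_of_perp' h3 h4)
  obtain ⟨a, ha, z, hz, h2⟩ := exists_nontriv hQ hρ hψ h h' w.2 w'.2 (by omega)
    (fun c hc a ha => h1 a ha _ (Submodule.smul_mem _ _ w.2) (by simp [Q_smul, h'.left])
      (smul_ne_zero hc h'.ne_zero) (by simp [h'.left])
      (by simp [polar_comm Q a, (mem_hperp.1 ha.2).1])) ⟨u.2, hu'⟩ hu0 hy hy0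
    fun a ha h2 => h1 a ha _ u.2 hq hu0 (mem_hperp.1 hu').1 h2 y hy
  obtain ⟨v, hv, hv0, h3⟩ : ∃ v ∈ hperp (Q.restrict (hperp Q e f)) w w', v ≠ 0 ∧
      pr (ρ.comp (lev h)) ψ w (hperp (Q.restrict (hperp Q e f)) w w') v z ≠ 0 := by
    by_contra! h3
    have h4 := hd.induction (ρ := ρ.comp (lev h)) hψ (N := WS (ρ.comp (lev h)) ψ w 0) (s := z)
      fun v hv h4 => by
        obtain rfl : v = 0 := by_contra fun h5 => h4 (h3 v hv h5)
        exact hd.pr_mem (by simp) z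
    exact h2 (by simpa using (mem_WS_lev h).1 h4 a ha.1 (mem_hperp.1 ha.2).1)
  have h4 := hd.pr_mem (ρ := ρ.comp (lev h)) (ψ := ψ) (hd.perp v hv) z
  have h5 := Cpl.pr_mem_of (ρ := ρ.comp (lev h)) (ψ := ψ) (e := w)
    (W := hperp (Q.restrict (hperp Q e f)) w w') (fun a _ => lev_mem_WS h _) v hz
  generalize pr (ρ.comp (lev h)) ψ w (hperp (Q.restrict (hperp Q e f)) w w') v z = x at h3 h4 h5
  rw [mem_hperp_restrict] at hv
  obtain ⟨g, hg, ⟨t, ht⟩, h8, h9, h10⟩ := exists_omega_five hQ h7 h h' w.2 w'.2 ⟨v.2, hv⟩ ⟨u.2, hu'⟩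
    (by simpa using hv0) hu0 (by_contra fun h6 => h3 (hc.eq_zero hQ hψ h h' hv h6 h5 h4)) hq
  rw [comm_eq hQ (by omega)] at hg
  have ht0 : t ≠ 0 := by rintro rfl; exact O.apply_ne_zero g h.ne_zero (by simpa using ht)
  have h11 : ρ ⟨g, hg⟩ x ∈ WS (ρ.comp (lev h)) ψ w u := (mem_WS_lev h).2 fun a ha h11 => by
    obtain ⟨a, rfl⟩ := g.1.surjective a
    rw [← h9, O.map_polar] at h11
    rw [← End.mul_apply, ← map_mul, ← h9, ← conj_E ⟨g, hg⟩, map_mul, End.mul_apply,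
      (mem_WS_lev h).1 h4 a ((mem_stab_iff.1 h8 a).2 ha) h11, map_smul, ← h10, O.map_polar]
  refine ⟨ρ ⟨g, hg⟩ x, ⟨fun s hs => hd.inner_WS (hρ.comp _) hψ
    (zero_mem _) hu h0.symm (fun a _ => by simpa using mem_fx.1 hs.2 _) h11, ?_⟩,
    h11, fun h12 => h3 (apply_injective ρ ⟨g, hg⟩ (h12.trans (map_zero _).symm))⟩
  simpa [ht, smul_smul, ht0] using WS_smul (t := t⁻¹) (by simp [h.left]) (inv_ne_zero ht0)
    (WS_map ⟨g, hg⟩ h5)

theorem Crit.inherit (hc : Crit ρ ψ) (h7 : 7 ≤ finrank F V) :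
    Crit (sub (ρ.comp (lev h)) _ ((hρ.comp (lev h)).orth_mem (lev_mem_WS (ψ := ψ) h))) ψ := by
  have : Finite V := Module.finite_of_finite F
  refine ⟨fun w w' u h' hu h0 => (Submodule.eq_bot_iff _).2 fun y hy => Subtype.ext
    (hc.eq_zero hQ hψ h (isHyp_restrict.1 h') (mem_hperp_restrict.1 hu) h0 y.2.2
      ((mem_WS_sub _).1 hy)), fun w w' u h' hu hq h0 g h1 h2 h3 y hy => Subtype.ext ?_,
    fun w w' u h' hu hq h0 => ?_⟩
  · rw [isHyp_restrict] at h'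
    rw [mem_hperp_restrict] at hu
    have := Fintype.ofFinite (hperp Q w.1 w'.1)
    have hd := cpl_left hQ h'
    refine hd.induction (ρ := ρ) hψ (N := LinearMap.eqLocus (ρ (lev h g)) 1) fun v hv h4 => ?_
    obtain ⟨c, rfl⟩ := eq_add_smul hQ hψ h h' w.2 w'.2 ⟨u.2, hu⟩ hv y.2.2
      ((mem_WS_lev h).1 ((mem_WS_sub _).1 hy)) h4
    refine hc.b _ _ _ h' hv (by rwa [Q_add_smul_of_singular h.left (mem_hperp.1 u.2).1])
      (fun h5 => h0 (Subtype.ext ?_)) _ (by rw [lev_apply, h1]) (by rw [lev_apply, h2])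
      (by rw [map_add, map_smul, lev_apply, h3, lev_left]) _ (hd.pr_mem (hd.perp _ hv) _)
    have h6 := congrArg (polar Q f) h5
    simp only [polar_add_right, polar_smul_right', h.polar_eq', (mem_hperp.1 u.2).2, mul_one,
      zero_add, polar_zero_right] at h6
    simpa [h6] using h5
  obtain ⟨y, h1, h2, h3⟩ := hc.exists_mem hQ hρ hψ h h7 h' hu hq h0
  exact (Submodule.ne_bot_iff _).2 ⟨⟨y, h1⟩, (mem_WS_sub _).2 h2, by simpa using h3⟩

end Cfsg.Lib.RepDeg
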