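import Cfsg.Agent.Lib.RepDeg.OWt

/-!
# Fixed vectors of the Levi factor in critical representations
-/

namespace Cfsg.Lib.RepDeg

open QuadraticMap Module Cfsg.Lib.Orth Cfsg.Lib.Sz Cfsg.Lib.CharDeg
open scoped InnerProductSpace ComplexConjugate

set_option linter.unusedSectionVars false

variable {F V : Type*} [Field F] [AddCommGroup V] [Module F V] {Q : QuadraticForm F V}
  [Finite F] [FiniteDimensional F V]
  {M : Type*} [NormedAddCommGroup M] [InnerProductSpace ℂ M] [FiniteDimensional ℂ M]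
  {e f : V}

/-- The embedding of the Levi factor. -/
noncomputable def lev (h : IsHyp Q e f) : eichGroup (Q.restrict (hperp Q e f)) →* eichGroup Q :=
  (h.isOSum.extR.comp (Subgroup.subtype _)).codRestrict _ fun g =>
    eichGroup_le (K := (eichGroup Q).comap h.isOSum.extR) (fun x a _ _ => by
      rw [Subgroup.mem_comap, h.isOSum.extR_eich]; exact eich_mem_eichGroup _ _) g.2

theorem lev_apply (h : IsHyp Q e f) (g : eichGroup (Q.restrict (hperp Q e f))) (a : hperp Q e f) :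
    (lev h g).1.1 a = g.1.1 a := h.isOSum.extR_right _ _

theorem lev_left (h : IsHyp Q e f) (g : eichGroup (Q.restrict (hperp Q e f))) :
    (lev h g).1.1 e = e := h.isOSum.extR_left _ (Submodule.subset_span (by simp))

theorem lev_right (h : IsHyp Q e f) (g : eichGroup (Q.restrict (hperp Q e f))) :
    (lev h g).1.1 f = f := h.isOSum.extR_left _ (Submodule.subset_span (by simp))

theorem lev_E (h : IsHyp Q e f) (x a : hperp Q e f) : lev h (E _ x a) = E Q x a :=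
  Subtype.ext (h.isOSum.extR_eich x a)

theorem isHyp_restrict {W : Submodule F V} {x y : W} :
    IsHyp (Q.restrict W) x y ↔ IsHyp Q x.1 y.1 :=
  ⟨fun h => ⟨h.left, h.right, h.polar_eq⟩, fun h => ⟨h.left, h.right, h.polar_eq⟩⟩

theorem mem_hperp_restrict {W : Submodule F V} {x y u : W} :
    u ∈ hperp (Q.restrict W) x y ↔ u.1 ∈ hperp Q x.1 y.1 := by simp [mem_hperp]

theorem eq_comb (hQ : ND Q) (h : IsHyp Q e f) {w w' : V} (h' : IsHyp Q w w')
    (hw : w ∈ hperp Q e f) (hw' : w' ∈ hperp Q e f) {v : V} (hv : v ∈ hperp Q w w')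
    (h1 : ∀ a ∈ hperp Q e f ⊓ hperp Q w w', polar Q a v = 0) :
    v = polar Q f v • e + polar Q e v • f := by
  have he : e ∈ hperp Q w w' := mem_hperp.2
    ⟨(polar_comm ..).trans (mem_hperp.1 hw).1, (polar_comm ..).trans (mem_hperp.1 hw').1⟩
  have hf : f ∈ hperp Q w w' := mem_hperp.2
    ⟨(polar_comm ..).trans (mem_hperp.1 hw).2, (polar_comm ..).trans (mem_hperp.1 hw').2⟩
  have h2 := nd_restrict_iff.1 (h.nd_inf hQ h' hw hw') (hproj Q e f v) ⟨h.hproj_mem v,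
    sub_mem (sub_mem hv (Submodule.smul_mem _ _ he)) (Submodule.smul_mem _ _ hf)⟩ fun a ha => by
      simp [hproj, polar_comm Q v a, h1 a ha, mem_hperp.1 ha.1]
  simpa [h2] using (hproj_add_eq (Q := Q) e f v).symm

variable {ρ : eichGroup Q →* End ℂ M} {ψ : AddChar F ℂ}

theorem mem_WS_lev (h : IsHyp Q e f) {w u : hperp Q e f} {y : M} :
    y ∈ WS (ρ.comp (lev h)) ψ w u ↔
      ∀ a ∈ hperp Q e f, polar Q w a = 0 → ρ (E Q w a) y = ψ (polar Q a u) • y :=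
  ⟨fun H a ha h1 => by simpa [lev_E] using H ⟨a, ha⟩ h1,
    fun H a ha => by simpa [lev_E] using H a a.2 ha⟩

theorem mem_WS_sub {N : Submodule ℂ M} (hN : ∀ g, ∀ y ∈ N, ρ g y ∈ N) {w u : V} {y : N} :
    y ∈ WS (sub ρ N hN) ψ w u ↔ y.1 ∈ WS ρ ψ w u := by
  simp [mem_WS, Subtype.ext_iff]

theorem lev_mem_WS (h : IsHyp Q e f) (g : eichGroup (Q.restrict (hperp Q e f))) :
    ∀ y ∈ WS ρ ψ e 0, (ρ.comp (lev h)) g y ∈ WS ρ ψ e 0 := fun y hy => by
  simpa [lev_left] using WS_map (lev h g) hy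

/-- The critical representations. -/
structure Crit (ρ : eichGroup Q →* End ℂ M) (ψ : AddChar F ℂ) : Prop where
  a : ∀ e f v, IsHyp Q e f → v ∈ hperp Q e f → Q v ≠ 0 → WS ρ ψ e v = ⊥
  b : ∀ e f v, IsHyp Q e f → v ∈ hperp Q e f → Q v = 0 → v ≠ 0 → ∀ g : eichGroup Q,
    g.1.1 e = e → g.1.1 f = f → g.1.1 v = v → ∀ y ∈ WS ρ ψ e v, ρ g y = y
  c : ∀ e f v, IsHyp Q e f → v ∈ hperp Q e f → Q v = 0 → v ≠ 0 → WS ρ ψ e v ≠ ⊥

variable (hQ : ND Q) (hρ : IsUn ρ) (hψ : ψ ≠ 1) (h : IsHyp Q e f)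
  {w w' : hperp Q e f} (h' : IsHyp (Q.restrict (hperp Q e f)) w w')
  (h3 : 3 ≤ finrank F (hperp Q e f))
  (hok : Ok ((Q.restrict (hperp Q e f)).restrict (hperp (Q.restrict (hperp Q e f)) w w')))
include hQ hρ hψ h h' h3 hok

open Classical in
theorem trick_side [Fintype (hperp Q e f)] {x : V} (hx : Cpl Q x (hperp Q e f))
    (hx' : ∀ g, (lev h g).1.1 x = x) (ha : ∀ v ∈ hperp Q e f, Q v ≠ 0 → WS ρ ψ x v = ⊥) {s : M}
    (hs : s ∈ fx (ρ.comp (lev h))) (hs' : s ∈ (WS ρ ψ x 0)ᗮ) (h0 : s ≠ 0) :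
    2 * ∑ v : hperp Q e f with polar Q w.1 v.1 = 0, ‖pr ρ ψ x (hperp Q e f) v.1 s‖ ^ 2 <
      ‖s‖ ^ 2 := by
  rw [← hx.sum_norm hρ hψ s]
  refine two_mul_lt (h.nd_hperp hQ) h3 h' hok (n := fun v => ‖pr ρ ψ x (hperp Q e f) v.1 s‖ ^ 2)
    ?_ (fun v hv => ?_) (fun g hg v => ?_) (by rw [hx.sum_norm hρ hψ s]; positivity)
  · have := hx.inner_pr_self hρ hψ (zero_mem _) s
    rw [(Submodule.mem_orthogonal' _ _).1 hs' _ (hx.pr_mem (by simp) s)] at this
    exact Complex.ofReal_injective this.symm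
  · have := hx.pr_mem (ρ := ρ) (ψ := ψ) (hx.perp _ v.2) s
    rw [ha v v.2 hv, Submodule.mem_bot] at this
    simp [this]
  · have := Cpl.map_pr (ρ := ρ) (ψ := ψ) (hx' ⟨g, hg⟩) g.1.toEquiv
      (fun a => (lev_apply h ⟨g, hg⟩ a).symm) v s
    rw [lev_apply, show ρ (lev h ⟨g, hg⟩) s = s from mem_fx.1 hs _] at this
    simp only [← this, hρ.norm]

theorem trick (ha : ∀ e f v, IsHyp Q e f → v ∈ hperp Q e f → Q v ≠ 0 → WS ρ ψ e v = ⊥) {s : M}
    (hs : s ∈ fx (ρ.comp (lev h))) (h1 : s ∈ (WS ρ ψ e 0)ᗮ) (h2 : s ∈ (WS ρ ψ f 0)ᗮ) : s = 0 := by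
  classical
  have : Finite V := Module.finite_of_finite F
  have := Fintype.ofFinite F
  have := Fintype.ofFinite (hperp Q e f)
  have := Fintype.ofFinite (hperp Q w.1 w'.1)
  by_contra h0
  have hw := isHyp_restrict.1 h'
  have hc := cpl_left hQ hw
  have h4 : ∀ x, Cpl Q x (hperp Q e f) →
      ∑ v : hperp Q w.1 w'.1 with polar Q x v.1 = 0, ‖pr ρ ψ w (hperp Q w.1 w'.1) v.1 s‖ ^ 2 =
      ∑ v : hperp Q e f with polar Q w.1 v.1 = 0, ‖pr ρ ψ x (hperp Q e f) v.1 s‖ ^ 2 :=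
    fun x hx => by
      have h4 := hc.sum_line hρ hψ ((polar_comm ..).trans (hx.perp _ w.2)) s
      simp only [E_swap hx.sing hw.left (hx.perp _ w.2)] at h4
      rw [Fintype.sum_equiv (Equiv.neg F) (fun c => ⟪s, ρ (E Q x ((-c) • w.1)) s⟫_ℂ)
        (fun c => ⟪s, ρ (E Q x (c • w.1)) s⟫_ℂ) fun _ => rfl, hx.sum_line hρ hψ (hx.perp _ w.2)] at h4
      exact Complex.ofReal_injective (mul_left_cancel₀ (by simp) h4.symm)
  have h5 := trick_side hQ hρ hψ h h' h3 hok (cpl_left hQ h) (lev_left h)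
    (fun v hv => ha e f v h hv) hs h1 h0
  have h6 := trick_side hQ hρ hψ h h' h3 hok (cpl_right hQ h) (lev_right h)
    (fun v hv => ha f e v h.symm (hperp_comm (Q := Q) e f ▸ hv)) hs h2 h0
  rw [← h4 _ (cpl_left hQ h)] at h5
  rw [← h4 _ (cpl_right hQ h)] at h6
  have h7 : ∀ v : hperp Q w.1 w'.1, pr ρ ψ w (hperp Q w.1 w'.1) v.1 s ≠ 0 →
      polar Q e v = 0 ∨ polar Q f v = 0 := fun v hv => by
    have h7 := hc.pr_mem (ρ := ρ) (ψ := ψ) (hc.perp _ v.2) s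
    have h8 : pr ρ ψ w (hperp Q w.1 w'.1) v.1 s ∈ WS (ρ.comp (lev h)) ψ w 0 :=
      Cpl.pr_mem_of (fun a ha y hy => (mem_WS_lev h).2 fun b hb h8 => by
        rw [← End.mul_apply, ← map_mul, E_add hw.left h8 (hc.perp a ha), add_comm,
          ← E_add hw.left (hc.perp a ha) h8, map_mul, End.mul_apply, (mem_WS_lev h).1 hy b hb h8,
          map_smul]) _ fun a _ => by simpa using mem_fx.1 hs _
    have h9 := eq_comb hQ h hw w.2 w'.2 v.2 fun a ha =>
      (perp_of_fixed hψ h7 hv (hc.perp a ha.2) fun c => (mem_WS_lev h).1 h8 _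
        (Submodule.smul_mem _ c ha.1) (by simp [hc.perp a ha.2])).trans (by simp)
    by_contra h10
    refine hv ((ha _ _ _ hw v.2 ?_).le h7)
    rw [h9, h.Q_comb]
    push Not at h10
    exact mul_ne_zero h10.2 h10.1
  refine (add_lt_add h5 h6).not_ge ?_
  rw [← mul_add, ← two_mul, ← hc.sum_norm hρ hψ s, Finset.sum_filter, Finset.sum_filter,
    ← Finset.sum_add_distrib]
  refine mul_le_mul_of_nonneg_left (Finset.sum_le_sum fun v _ => ?_) zero_le_two
  by_cases hv : pr ρ ψ w (hperp Q w.1 w'.1) v.1 s = 0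
  · simp [hv]
  · rcases h7 v hv with h8 | h8 <;> simp only [h8, if_true] <;> split_ifs <;> simp

theorem Crit.card_le (hc : Crit ρ ψ) {J : Type*} [Finite J] {v : J → hperp Q e f}
    (hv : ∀ j, Q (v j) = 0 ∧ v j ≠ 0)
    (hJ : ∀ i j (g : eichGroup (Q.restrict (hperp Q e f))), g.1.1 (v i) = v j → i = j) :
    Nat.card J ≤ finrank ℂ ↥(WS ρ ψ e 0 ⊓ fx (ρ.comp (lev h))) := by
  classical
  have : Finite V := Module.finite_of_finite F
  have := Fintype.ofFinite (hperp Q e f)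
  have := Fintype.ofFinite (eichGroup (Q.restrict (hperp Q e f)))
  have := Fintype.ofFinite J
  have hv' : ∀ j, (v j).1 ∈ hperp Q f e := fun j => hperp_comm (Q := Q) e f ▸ (v j).2
  choose y hy hy0 using fun j => (Submodule.ne_bot_iff _).1
    (hc.c f e (v j) h.symm (hv' j) (hv j).1 (by simpa using (hv j).2))
  have h1 : ∀ j g, ρ (lev h g) (y j) ∈ WS ρ ψ f (g.1.1 (v j)) := fun j g => by
    simpa [lev_right, lev_apply] using WS_map (lev h g) (hy j)
  have h2 : ∀ j, ∑ g, ρ (lev h g) (y j) ∈ fx (ρ.comp (lev h)) := fun j => mem_fx.2 fun k => by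
    rw [map_sum]
    exact Fintype.sum_equiv (Equiv.mulLeft k) _ _ fun g => by simp
  have h4 : ∀ s ∈ fx (ρ.comp (lev h)), pr ρ ψ e (hperp Q e f) 0 s ∈
      WS ρ ψ e 0 ⊓ fx (ρ.comp (lev h)) := fun s hs => ⟨(cpl_left hQ h).pr_mem (by simp) s,
    mem_fx.2 fun g => by
      have := Cpl.map_pr (ρ := ρ) (ψ := ψ) (lev_left h g) g.1.1.toEquiv
        (fun a => (lev_apply h g a).symm) 0 s
      rwa [map_zero, show ρ (lev h g) s = s from mem_fx.1 hs _] at this⟩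
  rw [Nat.card_eq_fintype_card]
  refine LinearIndependent.fintype_card_le_finrank (b := fun j => ⟨_, h4 _ (h2 j)⟩)
    (Fintype.linearIndependent_iff.2 fun c hc' i => ?_)
  have h5 : ∑ j, c j • ∑ g, ρ (lev h g) (y j) = 0 := by
    refine trick hQ hρ hψ h h' h3 hok hc.a (sum_mem fun j _ => Submodule.smul_mem _ _ (h2 j))
      (fun u hu => ?_) (sum_mem fun j _ => Submodule.smul_mem _ _ (sum_mem fun g _ u hu => ?_))
    · rw [(cpl_left hQ h).inner_pr hρ hψ (zero_mem _) hu, map_sum]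
      simp only [map_smul]
      simpa using congrArg (fun t : ↥(WS ρ ψ e 0 ⊓ fx (ρ.comp (lev h))) => ⟪u, t.1⟫_ℂ) hc'
    · exact (cpl_right hQ h).inner_WS hρ hψ (zero_mem _) (Subtype.prop _)
        (fun e => O.apply_ne_zero g.1 (hv j).2 (Subtype.ext e.symm)) hu (h1 j g)
  have h6 : ∀ j g, g.1.1 (v j) ≠ v i → ⟪y i, ρ (lev h g) (y j)⟫_ℂ = 0 := fun j g hg =>
    (cpl_right hQ h).inner_WS hρ hψ (v i).2 (Subtype.prop _) (fun e => hg (Subtype.ext e.symm))
      (hy i) (h1 j g)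
  have h7 := congrArg (⟪y i, ·⟫_ℂ) h5
  simp only [inner_zero_right] at h7
  rw [inner_sum, Finset.sum_eq_single i (fun j _ hj => by
    rw [inner_smul_right, inner_sum, Finset.sum_eq_zero fun g _ => h6 j g fun e => hj (hJ _ _ g e),
      mul_zero]) (by simp), inner_smul_right] at h7
  refine (mul_eq_zero.1 h7).resolve_right (inner_sum_ne_zero (hy0 i) (fun g => ?_) (i := 1)
    (by simp))
  by_cases hg : g.1.1 (v i) = v i
  · exact Or.inr (hc.b f e (v i) h.symm (hv' i) (hv i).1 (by simpa using (hv i).2) _ (lev_right h g)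
      (lev_left h g) (by rw [lev_apply, hg]) _ (hy i))
  · exact Or.inl (h6 i g hg)

theorem Crit.add_le (hc : Crit ρ ψ) {J : Type*} [Finite J] {v : J → hperp Q e f}
    (hv : ∀ j, Q (v j) = 0 ∧ v j ≠ 0)
    (hJ : ∀ i j (g : eichGroup (Q.restrict (hperp Q e f))), g.1.1 (v i) = v j → i = j) :
    cnt (Q.restrict (hperp Q e f)) 0 + Nat.card J +
      finrank ℂ ↥((WS ρ ψ e 0 ⊓ fx (ρ.comp (lev h)))ᗮ ⊓ WS ρ ψ e 0) ≤ finrank ℂ M + 1 := by
  have h1 := hc.card_le hQ hρ hψ h h' h3 hok hv hJ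
  have h2 := Submodule.finrank_add_inf_finrank_orthogonal
    (show WS ρ ψ e 0 ⊓ fx (ρ.comp (lev h)) ≤ WS ρ ψ e 0 from inf_le_left)
  have h4 := (cpl_left hQ h).ncard_mul_add_le hψ ρ (S := {v | Q.restrict _ v = 0 ∧ v ≠ 0})
    (by simp) (d := 1) fun v hv => Nat.pos_of_ne_zero fun e =>
      hc.c _ f v h v.2 hv.1 (by simpa using hv.2) (Submodule.finrank_eq_zero.1 e)
  rw [← Nat.card_coe_set_eq, Set.coe_setOf, card_singular_ne_zero] at h4
  omega

end Cfsg.Lib.RepDeg
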