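import Cfsg.Agent.Lib.RepDeg.Basic

/-!
# Unitary representations
-/

namespace Cfsg.Lib.RepDeg

open Module Cfsg.Lib.Sz
open scoped InnerProductSpace ComplexConjugate

set_option linter.unusedSectionVars false

universe v

variable {G : Type*} [Group G]

/-- The representation preserves the inner product. -/
def IsUn {M : Type*} [NormedAddCommGroup M] [InnerProductSpace ℂ M] (ρ : G →* End ℂ M) : Prop :=
  ∀ g x y, ⟪ρ g x, ρ g y⟫_ℂ = ⟪x, y⟫_ℂ

theorem le_finrank_of_unitary [Finite G] {d : ℕ → Prop}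
    (h : ∀ (M : Type v) [NormedAddCommGroup M] [InnerProductSpace ℂ M] [FiniteDimensional ℂ M]
      (ρ : G →* End ℂ M), IsUn ρ → (∃ g, ρ g ≠ 1) → d (finrank ℂ M))
    {M : Type v} [AddCommGroup M] [Module ℂ M] [FiniteDimensional ℂ M] (ρ : G →* End ℂ M)
    (hρ : ∃ g, ρ g ≠ 1) : d (finrank ℂ M) := by
  have := Fintype.ofFinite G
  let e : M ≃ₗ[ℂ] EuclideanSpace ℂ (Fin (finrank ℂ M)) :=
    LinearEquiv.ofFinrankEq _ _ (by simp)
  let c : InnerProductSpace.Core ℂ M :=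
    { inner := fun x y => ∑ g, ⟪e (ρ g x), e (ρ g y)⟫_ℂ
      conj_inner_symm := fun x y => by simp
      re_inner_nonneg := fun x => by
        rw [map_sum]; exact Finset.sum_nonneg fun g _ => inner_self_nonneg
      add_left := fun x y z => by simp [inner_add_left, Finset.sum_add_distrib]
      smul_left := fun x y r => by simp only [map_smul, inner_smul_left, Finset.mul_sum]
      definite := fun x hx => by
        have h1 := congrArg RCLike.re hx
        rw [map_sum, map_zero, Finset.sum_eq_zero_iff_of_nonneg fun g _ => inner_self_nonneg] at h1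
        have h2 := h1 1 (Finset.mem_univ _)
        rw [inner_self_eq_norm_sq] at h2
        simpa using h2 }
  letI : NormedAddCommGroup M := InnerProductSpace.Core.toNormedAddCommGroup (𝕜 := ℂ) (cd := c)
  letI : InnerProductSpace ℂ M := InnerProductSpace.ofCore c.toCore
  exact h M ρ (fun g x y => Fintype.sum_equiv (Equiv.mulRight g) _ _ fun k => by simp) hρ

variable {M : Type*} [NormedAddCommGroup M] [InnerProductSpace ℂ M] [FiniteDimensional ℂ M]
  {ρ : G →* End ℂ M}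

theorem IsUn.comp {H : Type*} [Group H] (h : IsUn ρ) (f : H →* G) : IsUn (ρ.comp f) :=
  fun g => h (f g)

theorem IsUn.norm (h : IsUn ρ) (g : G) (x : M) : ‖ρ g x‖ = ‖x‖ := by
  rw [norm_eq_sqrt_re_inner (𝕜 := ℂ), h, ← norm_eq_sqrt_re_inner]

/-- The restriction to an invariant subspace. -/
def sub (ρ : G →* End ℂ M) (N : Submodule ℂ M) (h : ∀ g, ∀ y ∈ N, ρ g y ∈ N) : G →* End ℂ N :=
  Representation.subrepresentation ρ N h

@[simp] theorem coe_sub {N : Submodule ℂ M} (h : ∀ g, ∀ y ∈ N, ρ g y ∈ N) (g : G) (y : N) :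
    (sub ρ N h g y : M) = ρ g y := rfl

theorem IsUn.sub (h : IsUn ρ) {N : Submodule ℂ M} (hN : ∀ g, ∀ y ∈ N, ρ g y ∈ N) :
    IsUn (sub ρ N hN) := fun g x y => h g x y

theorem IsUn.inner_eq_zero (h : IsUn ρ) {g : G} {x y : M} {a b : ℂ} (hx : ρ g x = a • x)
    (hy : ρ g y = b • y) (hab : conj a * b ≠ 1) : ⟪x, y⟫_ℂ = 0 := by
  have := h g x y
  rw [hx, hy, inner_smul_left, inner_smul_right, ← mul_assoc] at this
  by_contra h0
  exact hab ((mul_eq_right₀ h0).1 this)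

/-- The fixed vectors. -/
noncomputable def fx (ρ : G →* End ℂ M) : Submodule ℂ M := wt ρ 1

theorem mem_fx {y : M} : y ∈ fx ρ ↔ ∀ g, ρ g y = y := by simp [fx, mem_wt]

theorem IsUn.orth_mem (h : IsUn ρ) {N : Submodule ℂ M} (hN : ∀ g, ∀ y ∈ N, ρ g y ∈ N) (g : G) :
    ∀ y ∈ (N ⊓ fx ρ)ᗮ ⊓ N, ρ g y ∈ (N ⊓ fx ρ)ᗮ ⊓ N := fun y hy =>
  ⟨fun u hu => by rw [← mem_fx.1 hu.2 g, h, hy.1 u hu], hN g y hy.2⟩

theorem sub_ne_one {N : Submodule ℂ M} (hN : ∀ g, ∀ y ∈ N, ρ g y ∈ N) {g : G} {y : M} (hy : y ∈ N)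
    (h : ρ g y ≠ y) : sub ρ N hN g ≠ 1 :=
  fun e => h (congrArg Subtype.val (LinearMap.congr_fun e ⟨y, hy⟩))

theorem inner_sum_ne_zero {I : Type*} [Fintype I] {y : M} (h0 : y ≠ 0) {s : I → M}
    (h : ∀ i, ⟪y, s i⟫_ℂ = 0 ∨ s i = y) {i : I} (hi : s i = y) : ⟪y, ∑ i, s i⟫_ℂ ≠ 0 := by
  intro e
  have h1 := congrArg RCLike.re e
  rw [inner_sum, map_sum, map_zero, Finset.sum_eq_zero_iff_of_nonneg fun j _ => by
    rcases h j with h | h <;> rw [h]
    exacts [by simp, inner_self_nonneg]] at h1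
  have h2 := h1 i (Finset.mem_univ _)
  rw [hi, inner_self_eq_norm_sq] at h2
  exact h0 (by simpa using h2)

end Cfsg.Lib.RepDeg
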