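import Cfsg.Agent.Lib.RepDeg.OCount
import Cfsg.Agent.Lib.RepDeg.Unit

/-!
# Weight spaces of the point radicals of `Ω(Q)`
-/

namespace Cfsg.Lib.RepDeg

open QuadraticMap Module Cfsg.Lib.Orth Cfsg.Lib.Sz Cfsg.Lib.CharDeg
open scoped InnerProductSpace ComplexConjugate

set_option linter.unusedSectionVars false

variable {F V : Type*} [Field F] [AddCommGroup V] [Module F V] {Q : QuadraticForm F V}
  [Finite F] [FiniteDimensional F V]
  {M : Type*} [NormedAddCommGroup M] [InnerProductSpace ℂ M] [FiniteDimensional ℂ M]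

/-- Eichler transformations as elements of `Ω`. -/
noncomputable def E (Q : QuadraticForm F V) (u z : V) : eichGroup Q :=
  ⟨eich Q u z, eich_mem_eichGroup u z⟩

@[simp] theorem coe_E (u z : V) : (E Q u z).1 = eich Q u z := rfl

theorem E_add {u z z' : V} (hu : Q u = 0) (hz : polar Q u z = 0) (hz' : polar Q u z' = 0) :
    E Q u z * E Q u z' = E Q u (z + z') := Subtype.ext (eich_add hu hz hz').symm

@[simp] theorem E_zero (u : V) : E Q u 0 = 1 := Subtype.ext (eich_zero u)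

theorem conj_E (g : eichGroup Q) (u z : V) : g * E Q u z = E Q (g.1.1 u) (g.1.1 z) * g :=
  Subtype.ext (by simp [← conj_eich])

theorem E_swap {u z : V} (hu : Q u = 0) (hz : Q z = 0) (h : polar Q u z = 0) (c : F) :
    E Q z (c • u) = E Q u ((-c) • z) := Subtype.ext (by
  rw [coe_E, coe_E, ← eich_smul_left hz ((polar_comm ..).trans h), neg_smul,
    eich_swap hu (by simp [h]) (by simp [Q_smul, hz])])

variable (ρ : eichGroup Q →* End ℂ M) (ψ : AddChar F ℂ)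

/-- The weight space of the radical at `e` for the vector `v`. -/
def WS (e v : V) : Submodule ℂ M where
  carrier := {y | ∀ a, polar Q e a = 0 → ρ (E Q e a) y = ψ (polar Q a v) • y}
  add_mem' h h' a ha := by rw [map_add, h a ha, h' a ha, smul_add]
  zero_mem' a _ := by simp
  smul_mem' c v h a ha := by rw [map_smul, h a ha, smul_comm]

/-- The projection to a weight space. -/
noncomputable def pr (e : V) (W : Submodule F V) [Fintype W] (v : V) : End ℂ M :=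
  (Fintype.card W : ℂ)⁻¹ • ∑ a : W, ψ (-polar Q a v) • ρ (E Q e a)

variable {ρ ψ}

theorem mem_WS {e v : V} {y : M} :
    y ∈ WS ρ ψ e v ↔ ∀ a, polar Q e a = 0 → ρ (E Q e a) y = ψ (polar Q a v) • y := Iff.rfl

theorem WS_map (g : eichGroup Q) {e v : V} {y : M} (hy : y ∈ WS ρ ψ e v) :
    ρ g y ∈ WS ρ ψ (g.1.1 e) (g.1.1 v) := fun a ha => by
  obtain ⟨a, rfl⟩ := g.1.1.surjective a
  rw [O.map_polar] at ha
  rw [← End.mul_apply, ← map_mul, ← conj_E, map_mul, End.mul_apply, hy a ha, map_smul, O.map_polar]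

theorem WS_smul {e v : V} (he : Q e = 0) {t : F} (ht : t ≠ 0) {y : M} (hy : y ∈ WS ρ ψ e v) :
    y ∈ WS ρ ψ (t • e) (t • v) := fun a ha => by
  have h1 : polar Q e a = 0 := by simpa [ht] using ha
  rw [show E Q (t • e) a = E Q e (t • a) from Subtype.ext (eich_smul_left he h1 t),
    hy _ (by simp [h1])]
  simp

theorem WS_add_smul {e v : V} (c : F) {y : M} (hy : y ∈ WS ρ ψ e v) :
    y ∈ WS ρ ψ e (v + c • e) := fun a ha => by
  rw [hy a ha]; simp [polar_comm Q a e, ha]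

theorem E_mem_WS {e v : V} (he : Q e = 0) (hv : polar Q e v = 0) {a : V} (ha : polar Q e a = 0)
    {y : M} (hy : y ∈ WS ρ ψ e v) : ρ (E Q e a) y ∈ WS ρ ψ e v := by
  rw [hy a ha]; exact Submodule.smul_mem _ _ hy

theorem perp_of_fixed (hψ : ψ ≠ 1) {e v u : V} {y : M} (hy : y ∈ WS ρ ψ e v) (h0 : y ≠ 0) {a : V}
    (ha : polar Q e a = 0) (h : ∀ c : F, ρ (E Q e (c • a)) y = ψ (polar Q (c • a) u) • y) :
    polar Q a v = polar Q a u :=
  eq_of_addChar hψ fun c => by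
    have := smul_left_injective ℂ h0 ((hy (c • a) (by simp [ha])).symm.trans (h c))
    simpa [mul_comm] using this

theorem IsUn.inner_WS (hρ : IsUn ρ) (hψ : ψ ≠ 1) {e v v' a : V} {y y' : M} (hy : y ∈ WS ρ ψ e v)
    (hy' : y' ∈ WS ρ ψ e v') (ha : polar Q e a = 0) (h : polar Q a v ≠ polar Q a v') :
    ⟪y, y'⟫_ℂ = 0 := by
  obtain ⟨c, hc⟩ := not_forall.1 (mt (eq_of_addChar hψ) h)
  refine hρ.inner_eq_zero (hy (c • a) (by simp [ha])) (hy' (c • a) (by simp [ha])) fun e => hc ?_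
  rw [← AddChar.inv_apply_eq_conj, inv_mul_eq_one₀ (addChar_ne_zero _ _)] at e
  simpa [mul_comm] using e

/-- `W` is a non-degenerate complement of `e` in `e^⊥`. -/
structure Cpl (Q : QuadraticForm F V) (e : V) (W : Submodule F V) : Prop where
  sing : Q e = 0
  perp : ∀ a ∈ W, polar Q e a = 0
  nd : ND (Q.restrict W)
  dec : ∀ a, polar Q e a = 0 → ∃ c : F, a + c • e ∈ W

theorem cpl_left (hQ : ND Q) {e f : V} (h : IsHyp Q e f) : Cpl Q e (hperp Q e f) :=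
  ⟨h.left, fun _ ha => (mem_hperp.1 ha).1, h.nd_hperp hQ, fun a ha =>
    ⟨-polar Q f a, by simpa [hproj, ha, sub_eq_add_neg] using h.hproj_mem a⟩⟩

theorem cpl_right (hQ : ND Q) {e f : V} (h : IsHyp Q e f) : Cpl Q f (hperp Q e f) :=
  hperp_comm (Q := Q) f e ▸ cpl_left hQ h.symm

namespace Cpl

variable {e : V} {W : Submodule F V} (h : Cpl Q e W)
include h

theorem nd' (b : W) (hb : ∀ a, (polarBilin (Q.restrict W)) a b = 0) : b = 0 :=
  h.nd.eq_zero fun a => (polar_comm ..).trans (hb a)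

theorem mem_WS {v : V} (hv : polar Q e v = 0) {y : M}
    (hy : ∀ a ∈ W, ρ (E Q e a) y = ψ (polar Q a v) • y) : y ∈ WS ρ ψ e v := fun a ha => by
  obtain ⟨c, hc⟩ := h.dec a ha
  have := hy _ hc
  rwa [show E Q e (a + c • e) = E Q e a from Subtype.ext (eich_add_smul_self h.sing ha c),
    polar_add_left, polar_smul_left', hv, mul_zero, add_zero] at this

theorem WS_eq {v : V} (hv : polar Q e v = 0) :
    WS ρ ψ e v = wt (fun a : W => ρ (E Q e a)) fun a => ψ (polar Q a v) :=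
  le_antisymm (fun _ hy a => hy _ (h.perp _ a.2)) fun _ hy => h.mem_WS hv fun a ha => hy ⟨a, ha⟩

theorem exists_ne {v v' : V} (hv : v ∈ W) (hv' : v' ∈ W) (hne : v ≠ v') :
    ∃ a ∈ W, polar Q a v ≠ polar Q a v' := by
  obtain ⟨a, ha⟩ := h.nd.exists_polar_ne (x := ⟨v, hv⟩ - ⟨v', hv'⟩) (by simpa [sub_eq_zero])
  exact ⟨a, a.2, by simpa [sub_eq_zero, polar_comm Q a.1] using ha⟩

theorem inner_WS (hρ : IsUn ρ) (hψ : ψ ≠ 1) {v v' : V} (hv : v ∈ W) (hv' : v' ∈ W) (hne : v ≠ v')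
    {y y' : M} (hy : y ∈ WS ρ ψ e v) (hy' : y' ∈ WS ρ ψ e v') : ⟪y, y'⟫_ℂ = 0 :=
  let ⟨a, ha, h1⟩ := h.exists_ne hv hv' hne
  hρ.inner_WS hψ hy hy' (h.perp a ha) h1

theorem ncard_mul_add_le (hψ : ψ ≠ 1) (ρ : eichGroup Q →* End ℂ M) {S : Set W} (h0 : 0 ∉ S) {d : ℕ}
    (hd : ∀ v ∈ S, d ≤ finrank ℂ (WS ρ ψ e v)) :
    S.ncard * d + finrank ℂ (WS ρ ψ e 0) ≤ finrank ℂ M := by
  have : Finite V := Module.finite_of_finite F
  have := card_mul_add_le (fun a : W => ρ (E Q e a)) ⊤ (J := S)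
    (χ := fun v a => ψ (polar Q a v)) (fun v v' e => Subtype.ext (eq_of_form hψ h.nd' (congrFun e)))
    (χ₀ := fun a => ψ (polar Q a 0))
    (fun v e => h0 (eq_of_form hψ h.nd' (b' := 0) (congrFun e) ▸ v.2)) (d := d)
    fun v => by rw [top_inf_eq, ← h.WS_eq (h.perp _ v.1.2)]; exact hd _ v.2
  rwa [top_inf_eq, ← h.WS_eq (by simp), finrank_top] at this

variable [Fintype W]

theorem pr_mem {v : V} (hv : polar Q e v = 0) (s : M) : pr ρ ψ e W v s ∈ WS ρ ψ e v :=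
  h.mem_WS hv fun b hb => by
    simp only [pr, LinearMap.smul_apply, LinearMap.sum_apply, map_smul, map_sum]
    rw [smul_comm (ψ _)]
    congr 1
    rw [Finset.smul_sum]
    refine Fintype.sum_equiv (Equiv.addLeft (⟨b, hb⟩ : W)) _ _ fun a => ?_
    rw [← End.mul_apply, ← map_mul, E_add h.sing (h.perp b hb) (h.perp _ a.2), smul_smul,
      ← AddChar.map_add_eq_mul]
    simp

theorem sum_pr (hψ : ψ ≠ 1) (s : M) : ∑ v : W, pr ρ ψ e W v s = s := by
  classical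
  simp only [pr, LinearMap.smul_apply, LinearMap.sum_apply]
  rw [← Finset.smul_sum, Finset.sum_comm]
  simp only [← Finset.sum_smul]
  have h1 : ∀ a : W, ∑ v : W, ψ (-polar Q a v) = if a = 0 then (Fintype.card W : ℂ) else 0 :=
    fun a => by
      refine Eq.trans ?_ ((sum_form hψ h.nd' a).trans (by congr))
      exact Fintype.sum_equiv (Equiv.neg _) _ _ fun v => by simp [polar_comm Q a.1]
  simp [h1, smul_smul]

omit h in
theorem pr_mem_of {N : Submodule ℂ M} (hN : ∀ a ∈ W, ∀ y ∈ N, ρ (E Q e a) y ∈ N) (v : V) {s : M}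
    (hs : s ∈ N) : pr ρ ψ e W v s ∈ N := by
  simp only [pr, LinearMap.smul_apply, LinearMap.sum_apply]
  exact N.smul_mem _ (sum_mem fun a _ => N.smul_mem _ (hN _ a.2 s hs))

omit h in
theorem map_pr {g : eichGroup Q} (hg : g.1.1 e = e) (σ : W ≃ W) (hσ : ∀ a, (σ a : V) = g.1.1 a)
    (v : V) (s : M) : ρ g (pr ρ ψ e W v s) = pr ρ ψ e W (g.1.1 v) (ρ g s) := by
  simp only [pr, LinearMap.smul_apply, LinearMap.sum_apply, map_smul, map_sum]
  congr 1
  refine Fintype.sum_equiv σ _ _ fun a => ?_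
  rw [← End.mul_apply, ← map_mul, conj_E, hg, hσ, O.map_polar, map_mul, End.mul_apply]

theorem induction (hψ : ψ ≠ 1) {N : Submodule ℂ M} {s : M}
    (hs : ∀ v ∈ W, pr ρ ψ e W v s ≠ 0 → pr ρ ψ e W v s ∈ N) : s ∈ N := by
  rw [← h.sum_pr (ρ := ρ) hψ s]
  refine sum_mem fun v _ => ?_
  by_cases h0 : pr ρ ψ e W v s = 0
  · rw [h0]; exact zero_mem _
  · exact hs _ v.2 h0

theorem inner_pr (hρ : IsUn ρ) (hψ : ψ ≠ 1) {v : V} (hv : v ∈ W) {y : M} (hy : y ∈ WS ρ ψ e v)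
    (s : M) : ⟪y, s⟫_ℂ = ⟪y, pr ρ ψ e W v s⟫_ℂ := by
  nth_rw 1 [← h.sum_pr (ρ := ρ) hψ s]
  rw [inner_sum, Finset.sum_eq_single ⟨v, hv⟩ _ (by simp)]
  exact fun b _ hb => h.inner_WS hρ hψ hv b.2 (fun e => hb (Subtype.ext e.symm)) hy
    (h.pr_mem (h.perp _ b.2) s)

theorem inner_pr_self (hρ : IsUn ρ) (hψ : ψ ≠ 1) {v : V} (hv : v ∈ W) (s : M) :
    ⟪s, pr ρ ψ e W v s⟫_ℂ = (‖pr ρ ψ e W v s‖ ^ 2 : ℝ) := by
  rw [← inner_conj_symm, h.inner_pr hρ hψ hv (h.pr_mem (h.perp _ hv) s), inner_self_eq_norm_sq_to_K]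
  simp

theorem sum_norm (hρ : IsUn ρ) (hψ : ψ ≠ 1) (s : M) :
    ∑ v : W, ‖pr ρ ψ e W v s‖ ^ 2 = ‖s‖ ^ 2 := by
  have := congrArg (⟪s, ·⟫_ℂ) (h.sum_pr (ρ := ρ) hψ s)
  simp only [inner_sum, h.inner_pr_self hρ hψ (Subtype.prop _), inner_self_eq_norm_sq_to_K] at this
  exact Complex.ofReal_injective (by push_cast at this ⊢; exact this)

open Classical in
theorem sum_line [Fintype F] (hρ : IsUn ρ) (hψ : ψ ≠ 1) {b : V} (hb : polar Q e b = 0) (s : M) :
    ∑ c : F, ⟪s, ρ (E Q e (c • b)) s⟫_ℂ =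
      Fintype.card F * (∑ v : W with polar Q b v.1 = 0, ‖pr ρ ψ e W v.1 s‖ ^ 2 : ℝ) := by
  have h1 : ∀ c : F, ⟪s, ρ (E Q e (c • b)) s⟫_ℂ =
      ∑ v : W, ψ (c * polar Q b v) * (‖pr ρ ψ e W v s‖ ^ 2 : ℝ) := fun c => by
    nth_rw 2 [← h.sum_pr (ρ := ρ) hψ s]
    rw [map_sum, inner_sum]
    refine Finset.sum_congr rfl fun v _ => ?_
    rw [h.pr_mem (h.perp _ v.2) s _ (by simp [hb]), inner_smul_right, h.inner_pr_self hρ hψ v.2,
      polar_smul_left']
  simp only [h1]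
  rw [Finset.sum_comm, Finset.sum_filter (fun v : W => polar Q b v = 0), Complex.ofReal_sum,
    Finset.mul_sum]
  refine Finset.sum_congr rfl fun v _ => ?_
  have := sum_form hψ (β := LinearMap.mul F F) (fun b hb => by simpa using hb 1) (polar Q b v)
  simp only [LinearMap.mul_apply'] at this
  rw [← Finset.sum_mul, this]
  split_ifs <;> simp

end Cpl

end Cfsg.Lib.RepDeg
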