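import Cfsg.Agent.Lib.RepDeg.SpAlg
import Cfsg.Agent.Lib.Symp.Siegel
import Cfsg.Agent.Lib.Symp.Group

/-!
# The minimal degree of `Sp_{2m}(q)`, `q` even
-/

namespace Cfsg.Lib.RepDeg

open Module Cfsg.Lib.Sz Cfsg.Lib.CharDeg Cfsg.Lib.Symp

set_option linter.unusedSectionVars false

variable {F V M : Type*} [Field F] [Finite F] [AddCommGroup V] [Module F V] [FiniteDimensional F V]
  {B : LinearMap.BilinForm F V} [AddCommGroup M] [Module ℂ M] [FiniteDimensional ℂ M]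

/-- `N` is invariant under the pointwise stabiliser of `W^⊥`. -/
def SpInv (ρ : isom B →* End ℂ M) (W : Submodule F V) (N : Submodule ℂ M) : Prop :=
  ∀ g : isom B, (∀ u, (∀ w ∈ W, B w u = 0) → g.1 u = u) → ∀ v ∈ N, ρ g v ∈ N

theorem SpInv.inv {ρ : isom B →* End ℂ M} {W : Submodule F V} {N : Submodule ℂ M}
    (h : SpInv ρ W N) {g : isom B} (hg : ∀ u, (∀ w ∈ W, B w u = 0) → g.1 u = u) :
    ∀ v ∈ N, ρ g⁻¹ v ∈ N :=
  h _ fun u hu => g.1.symm_apply_eq.2 (hg u hu).symm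

theorem finite_isom : Finite (isom B) :=
  have : Finite V := Module.finite_of_finite F
  have : Finite (V ≃ₗ[F] V) := DFunLike.finite _
  inferInstance

section Step

variable (h2 : (2 : F) = 0) (hA : B.IsAlt) (hB : B.Nondegenerate) (ρ : isom B →* End ℂ M)
  {e : V} {W : Submodule F V} (he : ∀ a ∈ W, B e a = 0)
  (hW : ∀ b ∈ W, (∀ a ∈ W, B a b = 0) → b = 0) {N : Submodule ℂ M}

/-- The elements of the point radical. -/
def spX (p : W × F) : isom B := sg hA e p.1 p.2 (he _ p.1.2)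

theorem spX_mul (a b : W) (c d : F) : spX hA he (a, c) * spX hA he (b, d) =
    spX hA he (a + b, c + d + B b a) := sg_mul ..

theorem spX_zero (c : F) : spX hA he (0, c) = tv hA e c :=
  isom_ext fun x => by simp [spX, sg_apply, tv_apply]

include h2 in
theorem spX_comm (p p' : W × F) : ρ (spX hA he p) * ρ (spX hA he p') =
    ρ (spX hA he p') * ρ (spX hA he p) := by
  rw [← map_mul, ← map_mul, spX_mul, spX_mul, add_comm p.1, add_comm p.2, ← hA.neg_eq p.1]
  congr 3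
  linear_combination (-B p.1 p'.1) * h2

theorem spX_conj {g : isom B} (hg : g.1 e = e) {s : W → W} (hs : ∀ a : W, g.1 a = s a)
    (p : W × F) : g * spX hA he p * g⁻¹ = spX hA he (s p.1, p.2) := by
  rw [spX, conj_sg]
  simp only [spX, hg, hs]

theorem IsWt.spW {χ : W × F → ℂ} (h : IsWt (fun p => ρ (spX hA he p)) N χ) :
    SpW (B.restrict W) χ :=
  let ⟨_, _, h0, hv⟩ := h
  ⟨fun _ _ _ _ => wt_mul ρ hv h0 (spX_mul ..), wt_ne_zero ρ hv h0⟩

theorem wt_spX_le (χ : W × F → ℂ) : wt (fun p => ρ (spX hA he p)) χ ≤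
    wt (fun c => ρ (tv hA e c)) fun c => χ (0, c) :=
  fun v hv c => by simpa only [spX_zero] using hv (0, c)

include hW in
theorem nd_restrict (b : W) (h : ∀ a, B.restrict W a b = 0) : b = 0 :=
  Subtype.ext (hW _ b.2 fun a ha => h ⟨a, ha⟩)

include h2 hW in
theorem half_le (hN : SpInv ρ W N) {n : ℕ} (hn : Nat.card W = n ^ 2) {χ : W × F → ℂ}
    (h : IsWt (fun p => ρ (spX hA he p)) N χ) (hψ : (h.spW hA ρ he).psi ≠ 1) :
    (n : ℤ) * (n - 1) ≤ 2 * finrank ℂ ↥(N ⊓ wt (fun c => ρ (tv hA e c)) fun c => χ (0, c)) := by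
  have : Finite V := Module.finite_of_finite F
  have hS := h.spW hA ρ he
  have hA' : (B.restrict W).IsAlt := fun a => hA a
  refine (hS.card_le h2 hA' (nd_restrict hW) hψ hn).trans ?_
  have := card_le (fun p => ρ (spX hA he p))
    (N ⊓ wt (fun c => ρ (tv hA e c)) fun c => χ (0, c)) (J := {b // χ (b, 0) = 1})
    (χ := fun b p => χ p * hS.psi (B.restrict W p.1 b))
    (fun b b' e => Subtype.ext (eq_of_form hψ (nd_restrict hW) fun a =>
      mul_left_cancel₀ (hS.ne (a, 0)) (congrFun e (a, 0)))) fun b => by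
      obtain ⟨c, hc⟩ := hS.exists_transv h2 hA' hψ b.2
      obtain ⟨v, h3, h4, h5⟩ := h.conj ρ (g := tv hA b.1 c) (hN.inv fun u hu => by
        simp [tv_apply, hA.isRefl _ _ (hu _ b.1.2)])
        (spX_conj hA he (by simp [tv_apply, he _ b.1.2])
          (s := fun a => a + (c * B.restrict W a b) • b.1) fun a => by simp [tv_apply])
      simp only [hc] at h5
      exact ⟨v, ⟨h3, by simpa using wt_spX_le hA ρ he _ h5⟩, h4, h5⟩
  omega

include hB hW in
theorem sq_le (hN : SpInv ρ W N) {ν : W × F → ℂ}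
    (h : IsWt (fun p => ρ (spX hA he p)) N ν) (h1 : ∀ c, ν (0, c) = 1) (h3 : ν ≠ 1) :
    Nat.card W - 1 ≤ finrank ℂ ↥(N ⊓ wt (fun c => ρ (tv hA e c)) 1) := by
  classical
  have : Finite V := Module.finite_of_finite F
  have hS := h.spW hA ρ he
  obtain ⟨ψ, hψ⟩ := exists_addChar_ne_one F
  have h4 : ∀ a c, ν (a, c) = ν (a, 0) := fun a c => by rw [hS.split, hS.psi_apply, h1, mul_one]
  obtain ⟨b, hb⟩ := exists_eq_form hψ (nd_restrict hW) (χ := fun a => ν (a, 0))
    (fun u v => by rw [hS.mul, h4]) fun _ => hS.ne _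
  have hb0 : b ≠ 0 := by
    rintro rfl
    exact h3 (funext fun p => by simpa [← h4 p.1 p.2] using hb p.1)
  have := Fintype.ofFinite W
  rw [Nat.card_eq_fintype_card, ← Set.card_ne_eq (0 : W), ← Nat.card_eq_fintype_card]
  refine card_le (fun p => ρ (spX hA he p)) _ (χ := fun b p => ψ (B.restrict W p.1 b))
    (fun b b' e => Subtype.ext (eq_of_form hψ (nd_restrict hW) fun a => congrFun e (a, 0)))
    fun b' => ?_
  obtain ⟨g, hg, h5, h6⟩ := exists_isom_step hA hB (B.orthogonal W) b'.1 b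
    (fun h => b'.2 (Subtype.ext (hW _ b'.1.2 h))) (fun h => hb0 (Subtype.ext (hW _ b.2 h)))
    fun s hs => (hA.isRefl _ _ (hs _ b'.1.2)).trans (hA.isRefl _ _ (hs _ b.2)).symm
  have h7 : ∀ a : W, g a ∈ W := fun a => mem_of_forall_orth hA hB fun w hw => by
    rw [← h5 w hw, hg, hw _ a.2]
  obtain ⟨v, h8, h9, h10⟩ := h.conj ρ (g := ⟨g, hg⟩) (hN.inv h5)
    (spX_conj hA he (h5 e fun a ha => hA.isRefl _ _ (he a ha)) (s := fun a => ⟨_, h7 a⟩) fun a => rfl)
  have h11 : v ∈ wt (fun p => ρ (spX hA he p)) fun p => ψ (B.restrict W p.1 b') := by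
    convert h10 using 3 with p
    rw [h4, hb]
    simp [← h6, hg p.1]
  exact ⟨v, ⟨h8, by simpa [Pi.one_def] using wt_spX_le hA ρ he _ h11⟩, h9, h11⟩

include h2 hW in
theorem exists_fixed (hN : SpInv ρ W N) (h4 : 4 ≤ finrank F W) {χ : W × F → ℂ}
    (h : IsWt (fun p => ρ (spX hA he p)) N χ) (hψ : (h.spW hA ρ he).psi ≠ 1) :
    ∃ w ∈ W, w ≠ 0 ∧ ∃ y ∈ N ⊓ wt (fun c => ρ (tv hA w c)) 1,
      y ∉ wt (fun p => ρ (spX hA he p)) 1 := by
  have hS := h.spW hA ρ he
  have hA' : (B.restrict W).IsAlt := fun a => hA a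
  obtain ⟨w, hw0, hw⟩ : ∃ w : W, w ≠ 0 ∧ ∀ c : F, χ (c • w, 0) = 1 := by
    obtain ⟨u, hu⟩ := Module.finrank_pos_iff_exists_ne_zero (R := F) (M := W).1 (by omega)
    obtain ⟨v, hv, hv'⟩ : ∃ v ∈ LinearMap.ker (B.restrict W u), v ∉ F ∙ u := by
      by_contra! h3
      have h5 := Submodule.finrank_mono (show LinearMap.ker (B.restrict W u) ≤ F ∙ u from h3)
      have h6 := (B.restrict W u).finrank_range_add_finrank_ker
      have h7 := (LinearMap.range (B.restrict W u)).finrank_le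
      rw [finrank_span_singleton hu] at h5
      rw [finrank_self] at h7
      omega
    have hk : ∀ a : W, ∃ k, ∀ c : F, χ (c • a, 0) = hS.psi (c * k) := fun a =>
      exists_eq_mul hψ (fun u v => by rw [hS.mul]; simp [add_smul, hA.self_eq_zero])
        fun _ => hS.ne _
    obtain ⟨k, hk1⟩ := hk u
    obtain ⟨l, hl⟩ := hk v
    rcases eq_or_ne k 0 with rfl | h3
    · exact ⟨u, hu, by simpa using hk1⟩
    refine ⟨k • v + (-l) • u, fun h5 => hv' ((Submodule.smul_mem_iff _ h3).1 ?_), fun c => ?_⟩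
    · rw [eq_neg_of_add_eq_zero_left h5]
      exact neg_mem (Submodule.smul_mem _ _ (Submodule.mem_span_singleton_self u))
    · have := hS.mul ((c * k) • v) 0 ((c * -l) • u) 0
      rw [hk1, hl, ← AddChar.map_add_eq_mul, show c * k * l + c * -l * k = 0 by ring,
        AddChar.map_zero_eq_one, map_smul, map_smul, LinearMap.smul_apply,
        LinearMap.mem_ker.1 hv] at this
      rw [this, smul_add, smul_smul, smul_smul]
      simp
  obtain ⟨v, h5, h6, h7⟩ := h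
  have := Fintype.ofFinite F
  have h8 : ∀ c, ρ (tv hA w c) v ∈ wt (fun p => ρ (spX hA he p))
      fun p => χ p * hS.psi (-c * B.restrict W p.1 w ^ 2) := fun c => by
    have := apply_mem_wt ρ h7 (g := (tv hA w (-c))⁻¹)
      (s := fun p => (p.1 + (-c * B.restrict W p.1 w) • w, p.2)) fun p => by
      rw [← spX_conj hA he (g := tv hA w (-c)) (by simp [tv_apply, he _ w.2])
        (s := fun a => a + (-c * B.restrict W a w) • w) fun a => by simp [tv_apply]]
      group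
    simpa only [tv_inv, neg_neg, hS.transv h2 hA', hw, one_mul] using this
  have h9 : ∑ c, ρ (tv hA w c) v ≠ 0 := by
    refine sum_ne_zero _ (fun c c' e => neg_injective (eq_of_addChar hψ fun a => ?_)) h8
      fun c e => h6 (apply_injective ρ _ (e.trans (map_zero _).symm))
    obtain ⟨r, rfl⟩ := sq_surj h2 a
    obtain ⟨x, hx⟩ := not_forall.1 (mt (nd_restrict hW w) hw0)
    simpa [hS.ne, div_mul_cancel₀ r (show B x w ≠ 0 from hx)] using
      congrFun e ((r / B x w) • x, 0)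
  refine ⟨w, w.2, by simpa, ∑ c, ρ (tv hA w c) v, ⟨sum_mem fun c _ => hN _ (fun u hu => by
    simp [tv_apply, hA.isRefl _ _ (hu _ w.2)]) _ h5, fun c => ?_⟩, fun h10 => h9 ?_⟩
  · rw [map_sum, Pi.one_apply, one_smul]
    exact Fintype.sum_equiv (Equiv.addLeft c) _ _ fun d => by
      rw [← End.mul_apply, ← map_mul, tv_mul]; rfl
  · obtain ⟨c, hc⟩ := AddChar.ne_one_iff.1 hψ
    have h11 : ∑ c, ρ (tv hA w c) v ∈ wt (fun c => ρ (tv hA e c)) fun c => χ (0, c) :=
      sum_mem fun c _ => by simpa using wt_spX_le hA ρ he _ (h8 c)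
    have h12 := (h11 c).symm.trans (wt_spX_le hA ρ he _ h10 c)
    by_contra h13
    exact hc (smul_left_injective ℂ h13 h12)

include hB in
theorem SpInv.fixed (hN : SpInv ρ W N) : SpInv ρ W (N ⊓ wt (fun p => ρ (spX hA he p)) 1) :=
  fun g hg v hv => by
    have h5 : ∀ u, (∀ w ∈ W, B w u = 0) → g⁻¹.1 u = u := fun u hu =>
      g.1.symm_apply_eq.2 (hg u hu).symm
    have h7 : ∀ a : W, g⁻¹.1 a ∈ W := fun a => mem_of_forall_orth hA hB fun w hw => by
      rw [← h5 w hw, g⁻¹.2, hw _ a.2]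
    refine ⟨hN g hg v hv.1, apply_mem_wt ρ hv.2 (s := fun p => (⟨_, h7 p.1⟩, p.2)) fun p => ?_⟩
    rw [← spX_conj hA he (h5 e fun a ha => hA.isRefl _ _ (he a ha)) (s := fun a => ⟨_, h7 a⟩)
      fun a => rfl]
    group

end Step

theorem spMain (h2 : (2 : F) = 0) (hA : B.IsAlt) (hB : B.Nondegenerate) (ρ : isom B →* End ℂ M)
    (m : ℕ) : ∀ (W : Submodule F V) (N : Submodule ℂ M), (∀ b ∈ W, (∀ a ∈ W, B a b = 0) → b = 0) →
      finrank F W = 2 * m → SpInv ρ W N → (∃ w ∈ W, ∃ c, ∃ v ∈ N, ρ (tv hA w c) v ≠ v) →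
      ((Nat.card F : ℤ) ^ m - 1) * (Nat.card F ^ m - Nat.card F) ≤
        2 * (Nat.card F + 1) * finrank ℂ N := by
  induction m with
  | zero => intros; simp
  | succ m ih =>
  rintro X N hX hm hN ⟨e, heX, c, v, hv, hc⟩
  have := finite_isom (B := B)
  have he0 : e ≠ 0 := by rintro rfl; simp at hc
  obtain ⟨f, hfX, hf⟩ : ∃ f ∈ X, B f e = 1 := by
    by_contra! h
    refine he0 (hX e heX fun a ha => by_contra fun h3 => h ((B a e)⁻¹ • a) (X.smul_mem _ ha) ?_)
    simp [h3]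
  have hf' : B e f = -1 := by rw [← hA.neg_eq, hf]
  let L : X →ₗ[F] F × F := ((B e).prod (B f)).domRestrict X
  let W : Submodule F V := (LinearMap.ker L).map X.subtype
  have hmem : ∀ {a}, a ∈ W ↔ a ∈ X ∧ B e a = 0 ∧ B f a = 0 := fun {a} =>
    ⟨by rintro ⟨a, ha, rfl⟩; exact ⟨a.2, Prod.ext_iff.1 ha⟩,
      fun h => ⟨⟨a, h.1⟩, Prod.ext h.2.1 h.2.2, rfl⟩⟩
  have hW2 : finrank F W = 2 * m := by
    have := L.finrank_range_add_finrank_ker
    rw [LinearMap.range_eq_top.2 fun p => ⟨⟨p.2 • e - p.1 • f, sub_mem (X.smul_mem _ heX)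
      (X.smul_mem _ hfX)⟩, by simp [L, hf, hf', hA.self_eq_zero]⟩, finrank_top, finrank_prod,
      finrank_self] at this
    rw [Submodule.finrank_map_subtype_eq]
    omega
  have he : ∀ a ∈ W, B e a = 0 := fun a ha => (hmem.1 ha).2.1
  have hW : ∀ b ∈ W, (∀ a ∈ W, B a b = 0) → b = 0 := fun b hb h => hX b (hmem.1 hb).1 fun a ha => by
    simpa [he b hb, (hmem.1 hb).2.2] using h (a - B f a • e + B e a • f) (hmem.2
      ⟨add_mem (sub_mem ha (X.smul_mem _ heX)) (X.smul_mem _ hfX),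
        by simp [hf', hA.self_eq_zero], by simp [hf, hA.self_eq_zero]⟩)
  have hN' : SpInv ρ W N := fun g hg => hN g fun u hu => hg u fun w hw => hu w (hmem.1 hw).1
  have hx : ∀ p, ∀ u, (∀ w ∈ X, B w u = 0) → (spX hA he p).1 u = u := fun p u hu => by
    simp [spX, sg_apply, hA.isRefl _ _ (hu _ heX), hA.isRefl _ _ (hu _ (hmem.1 p.1.2).1)]
  obtain ⟨χ, h3, hχ⟩ := exists_isWt_ne_one (spX_comm h2 hA ρ he) (fun p => hN _ (hx p))
    (i := (0, c)) Nat.card_pos.ne' (rho_pow_card ρ _) hv (by rwa [spX_zero])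
  have hψ : (hχ.spW hA ρ he).psi ≠ 1 := AddChar.ne_one_iff.2 ⟨c, h3⟩
  have hn : Nat.card W = (Nat.card F ^ m) ^ 2 := by
    rw [Module.natCard_eq_pow_finrank (K := F), hW2, ← pow_mul, mul_comm]
  obtain ⟨d, hd, hd'⟩ : ∃ d : ℕ, ((Nat.card F ^ m : ℕ) : ℤ) * ((Nat.card F ^ m : ℕ) - 1) ≤ 2 * d ∧
      ∀ k : ℕ, ((Nat.card F ^ m : ℕ) : ℤ) * ((Nat.card F ^ m : ℕ) - 1) ≤ 2 * k → d ≤ k := by
    generalize ((Nat.card F ^ m : ℕ) : ℤ) * ((Nat.card F ^ m : ℕ) - 1) = t
    exact ⟨((t + 1) / 2).toNat, by omega, by omega⟩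
  have h4 := card_mul_add_le (fun c => ρ (tv hA e c)) N (J := {s : F | s ≠ 0})
    (χ := fun s c => χ (0, s * c)) (fun s t e => Subtype.ext (eq_of_addChar hψ (congrFun e)))
    (χ₀ := 1) (fun s e => s.2 (eq_of_addChar hψ fun a => by
      rw [zero_mul, AddChar.map_zero_eq_one]; exact congrFun e a)) (d := d) fun s => hd' _ (by
      obtain ⟨r, hr⟩ := sq_surj h2 s.1
      have hr0 : r ≠ 0 := by rintro rfl; exact s.2 (by simp [← hr])
      obtain ⟨g, hg, h5, h6⟩ := exists_isom_step hA hB (LinearMap.ker (B e) ⊓ LinearMap.ker (B f))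
        e (r • e) (fun h => by simpa [hf] using h.2) (fun h => by simpa [hf, hr0] using h.2)
        fun u hu => by simp [hA.isRefl _ _ hu.1]
      have h7 := hχ.conj ρ (g := ⟨g, hg⟩) (hN.inv fun u hu => h5 u ⟨hu _ heX, hu _ hfX⟩)
        (s := fun p => (r • p.1, s * p.2)) fun p => by
          rw [spX, conj_sg]
          refine isom_ext fun y => ?_
          simp only [spX, sg_apply, h6, h5 _ ⟨he _ p.1.2, (hmem.1 p.1.2).2.2⟩, ← hr]
          simp
          module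
      have := half_le h2 hA ρ he hW hN' hn h7 (AddChar.ne_one_iff.2 ⟨s.1⁻¹ * c, by
        simpa [SpW.psi_apply, mul_inv_cancel_left₀ s.2] using h3⟩)
      rwa [show (fun c => χ (r • ((0 : W), c).1, s * ((0 : W), c).2)) = fun c => χ (0, s * c) from
        by simp] at this)
  have hq : (2 : ℤ) ≤ Nat.card F := by exact_mod_cast Finite.one_lt_card
  have h5 : ((Nat.card F : ℤ) ^ m - 1) * (Nat.card F ^ m - Nat.card F) ≤
      2 * (Nat.card F + 1) * finrank ℂ ↥(N ⊓ wt (fun c => ρ (tv hA e c)) 1) := by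
    obtain rfl | rfl | hm2 : m = 0 ∨ m = 1 ∨ 2 ≤ m := by omega
    · simp
    · simp
    have hC : N ⊓ wt (fun p => ρ (spX hA he p)) 1 ≤ N ⊓ wt (fun c => ρ (tv hA e c)) 1 :=
      inf_le_inf_left _ (wt_spX_le hA ρ he _)
    by_cases h5 : ∃ w ∈ W, ∃ c, ∃ v ∈ N ⊓ wt (fun p => ρ (spX hA he p)) 1, ρ (tv hA w c) v ≠ v
    · refine (ih W _ hW hW2 (hN'.fixed hA hB ρ he) h5).trans ?_
      have := Submodule.finrank_mono hC
      gcongr
    push Not at h5
    obtain ⟨w, hw, hw0, y, hy, hy'⟩ := exists_fixed h2 hA ρ he hW hN' (by omega) hχ hψ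
    obtain ⟨g, hg, h6, h7⟩ := exists_isom_step hA hB (B.orthogonal X) w e
      (fun h => hw0 (hX _ (hmem.1 hw).1 h)) (fun h => he0 (hX _ heX h))
      fun s hs => (hA.isRefl _ _ (hs _ (hmem.1 hw).1)).trans (hA.isRefl _ _ (hs _ heX)).symm
    have h8 := finrank_le_of_map ρ ⟨g, hg⟩ (N := N ⊓ wt (fun c => ρ (tv hA w c)) 1)
      (N' := N ⊓ wt (fun c => ρ (tv hA e c)) 1) fun v hv => ⟨hN ⟨g, hg⟩ h6 _ hv.1, fun c => by
        rw [← End.mul_apply, ← map_mul, ← h7, ← conj_tv hA ⟨g, hg⟩, inv_mul_cancel_right, map_mul,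
          End.mul_apply, hv.2 c, map_smul]⟩
    have h9 := Submodule.finrank_lt_finrank_of_lt (show N ⊓ wt (fun p => ρ (spX hA he p)) 1 <
      N ⊓ wt (fun c => ρ (tv hA w c)) 1 from lt_of_le_not_ge
        (fun v hv => ⟨hv.1, fun c => by simpa using h5 w hw c v hv⟩) fun h => hy' (h hy).2)
    obtain ⟨z, hz, hz'⟩ := SetLike.not_le_iff_exists.1
      fun h => (h9.trans_le h8).not_ge (Submodule.finrank_mono h)
    obtain ⟨p, hp⟩ := not_forall.1 fun h => hz' ⟨hz.1, h⟩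
    obtain ⟨ν, h10, u, hu, h11, h12⟩ := exists_isWt_ne_one (spX_comm h2 hA ρ he)
      (N := N ⊓ wt (fun c => ρ (tv hA e c)) 1) (fun p v hv => ⟨hN _ (hx p) _ hv.1, fun c => by
        have := LinearMap.congr_fun (spX_comm h2 hA ρ he (0, c) p) v
        rwa [spX_zero, End.mul_apply, End.mul_apply, hv.2 c, map_smul] at this⟩)
      (i := p) Nat.card_pos.ne' (rho_pow_card ρ _) hz (by simpa using hp)
    have h13 := sq_le hA hB ρ he hW hN' ⟨u, hu.1, h11, h12⟩ (fun c => smul_left_injective ℂ h11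
      ((wt_spX_le hA ρ he _ h12 c).symm.trans (hu.2 c))) fun e => h10 (congrFun e p)
    rw [hn] at h13
    have h14 : (1 : ℤ) ≤ Nat.card F ^ m := one_le_pow₀ (by omega)
    have h15 : ((Nat.card F : ℤ) ^ m) ^ 2 ≤
        finrank ℂ ↥(N ⊓ wt (fun c => ρ (tv hA e c)) 1) + 1 := by exact_mod_cast (by omega)
    nlinarith
  have := Fintype.ofFinite F
  classical
  rw [Nat.card_eq_fintype_card, Set.card_ne_eq, ← Nat.card_eq_fintype_card] at h4
  zify [show 1 ≤ Nat.card F by omega] at h4 hd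
  have h6 := mul_le_mul_of_nonneg_left h4 (show (0 : ℤ) ≤ 2 * (Nat.card F + 1) by omega)
  have h7 := mul_le_mul_of_nonneg_left hd (show (0 : ℤ) ≤ Nat.card F ^ 2 - 1 by nlinarith)
  rw [pow_succ]
  nlinarith

theorem minDeg_Sp [Fintype F] [DecidableEq F] (h2 : (2 : F) = 0) {n k : ℕ}
    (ρ : Representation ℂ (Matrix.symplecticGroup (Fin n) F) (Fin k → ℂ))
    (hρ : ρ.IsIrreducible) (hk : 2 ≤ k) :
    (Fintype.card F ^ n - 1) * (Fintype.card F ^ n - Fintype.card F) ≤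
      2 * (Fintype.card F + 1) * k := by
  have h1 := spMain h2 (bil_isAlt (Fin n) F) (bil_nondegenerate _ F)
    (MonoidHom.comp ρ (spEquiv _ F).symm.toMonoidHom) n ⊤ ⊤
    (fun b _ h => (bil_nondegenerate _ F).2 b fun a => h a trivial) (by simp [two_mul])
    (fun _ _ _ _ => trivial) (by
      by_contra! h
      obtain ⟨g, hg⟩ := exists_ne_one ρ hρ (by simpa)
      refine hg ((eq_top_of_tvSp_mem (MonoidHom.ker ρ) fun v c => LinearMap.ext fun y => ?_).ge
        (Subgroup.mem_top g))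
      simpa [← spEquiv_tvSp] using h v trivial c y trivial)
  rcases Nat.eq_zero_or_pos n with rfl | hn
  · simp
  have hq := Fintype.card_pos (α := F)
  zify [Nat.one_le_pow n _ hq, Nat.le_self_pow hn.ne' (Fintype.card F)]
  simpa using h1

end Cfsg.Lib.RepDeg
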