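import Cfsg.Agent.Lib.RepDeg.Basic

/-!
# Characters of the point radical of `Sp_{2m}(q)`, `q` even
-/

namespace Cfsg.Lib.RepDeg

open Module Cfsg.Lib.Sz Cfsg.Lib.CharDeg

set_option linter.unusedSectionVars false

variable {F W : Type*} [Field F] [AddCommGroup W] [Module F W]

/-- A character of the point radical. -/
structure SpW (β : W →ₗ[F] W →ₗ[F] F) (χ : W × F → ℂ) : Prop where
  mul : ∀ a c b d, χ (a, c) * χ (b, d) = χ (a + b, c + d + β b a)
  ne : ∀ p, χ p ≠ 0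

theorem sq_surj [Finite F] (h2 : (2 : F) = 0) (a : F) : ∃ r, r ^ 2 = a :=
  Finite.surjective_of_injective (f := fun r : F => r ^ 2) (fun r s e => by
    have : (r - s) ^ 2 = 0 := by
      simp only at e
      linear_combination e + (s ^ 2 - r * s) * h2
    exact sub_eq_zero.1 (pow_eq_zero_iff two_ne_zero |>.1 this)) a

theorem exists_solve [Finite F] (h2 : (2 : F) = 0) {ψ : AddChar F ℂ} (hψ : ψ ≠ 1) {μ : F}
    (hμ : ∀ x, ψ (x ^ 2) = ψ (x * μ)) {h : F} (hh : ψ h = 1) : ∃ d, h * d ^ 2 + μ * d = 1 := by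
  let A : F →+ F := ⟨⟨fun d => h * d ^ 2 + μ * d, by simp⟩, fun a b => by
    linear_combination (h * a * b) * h2⟩
  by_contra h1
  obtain ⟨η, hη⟩ := AddChar.exists_apply_ne_zero.2
    (show ((1 : F) : F ⧸ A.range) ≠ 0 from fun e => h1 ((QuotientAddGroup.eq_zero_iff _).1 e))
  obtain ⟨κ, hκ⟩ := exists_eq_mul hψ (χ := fun y : F => η y)
    (fun u v => by simp [η.map_add_eq_mul]) fun u e => by
      simpa [e] using η.map_add_eq_mul u (-u)
  obtain ⟨r, hr⟩ := sq_surj h2 (κ * h)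
  have h3 : μ * (r + κ) = 0 := eq_of_addChar hψ fun d => by
    have := hκ (A d)
    rw [(QuotientAddGroup.eq_zero_iff (N := A.range) (A d)).2 ⟨d, rfl⟩, η.map_zero_eq_one] at this
    rw [zero_mul, ψ.map_zero_eq_one, this, show A d * κ = (r * d) ^ 2 + μ * κ * d by
      change (h * d ^ 2 + μ * d) * κ = _; linear_combination (-d ^ 2) * hr,
      ψ.map_add_eq_mul, hμ, ← ψ.map_add_eq_mul]
    congr 1; ring
  have h4 : μ ≠ 0 := by
    rintro rfl
    exact hψ (AddChar.ext _ _ fun a => by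
      obtain ⟨x, rfl⟩ := sq_surj h2 a
      simpa using hμ x)
  have h5 : κ * (κ - h) = 0 := by
    have := (mul_eq_zero.1 h3).resolve_left h4
    linear_combination hr + (κ - r) * this
  apply hη
  rw [hκ, one_mul]
  rcases mul_eq_zero.1 h5 with h6 | h6
  · simp [h6]
  · rwa [sub_eq_zero.1 h6]

namespace SpW

variable {β : W →ₗ[F] W →ₗ[F] F} {χ : W × F → ℂ} (h : SpW β χ)
include h

theorem zero : χ (0, 0) = 1 :=
  mul_left_cancel₀ (h.ne (0, 0)) (by rw [h.mul]; simp)

/-- The restriction to the centre. -/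
def psi : AddChar F ℂ := ⟨fun c => χ (0, c), h.zero, fun a b => by rw [h.mul]; simp⟩

theorem psi_apply (c : F) : h.psi c = χ (0, c) := rfl

theorem split (a : W) (c : F) : χ (a, c) = χ (a, 0) * h.psi c := by
  rw [psi_apply, h.mul]; simp

theorem transv (h2 : (2 : F) = 0) (hA : β.IsAlt) (a b : W) (c γ : F) :
    χ (a + (c * β a b) • b, γ) = χ (a, γ) * (χ ((c * β a b) • b, 0) * h.psi (c * β a b ^ 2)) := by
  rw [← h.split, h.mul]
  congr 2
  rw [map_smul, LinearMap.smul_apply, ← hA.neg, smul_eq_mul]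
  ring

theorem exists_transv [Finite F] (h2 : (2 : F) = 0) (hA : β.IsAlt) (hψ : h.psi ≠ 1) {b : W}
    (hb : χ (b, 0) = 1) : ∃ c, ∀ a γ, χ (a + (c * β a b) • b, γ) = χ (a, γ) * h.psi (β a b) := by
  obtain ⟨k, hk⟩ := exists_eq_mul hψ (χ := fun c => χ (c • b, 0))
    (fun u v => by rw [h.mul]; simp [add_smul, hA.self_eq_zero]) fun _ => h.ne _
  obtain ⟨μ, hμ⟩ := exists_eq_mul hψ (χ := fun x => h.psi (x ^ 2))
    (fun u v => by
      rw [← AddChar.map_add_eq_mul]; congr 1; linear_combination (-u * v) * h2)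
    fun _ => addChar_ne_zero _ _
  obtain ⟨d, hd⟩ := exists_solve h2 hψ hμ (h := k) (by simpa [hb] using (hk 1).symm)
  refine ⟨d ^ 2, fun a γ => ?_⟩
  rw [h.transv h2 hA, hk, ← mul_pow, hμ, ← AddChar.map_add_eq_mul]
  congr 2
  linear_combination (β a b) * hd

theorem card_le [Finite W] (h2 : (2 : F) = 0) (hA : β.IsAlt) (hβ : ∀ b, (∀ a, β a b = 0) → b = 0)
    (hψ : h.psi ≠ 1) {n : ℕ} (hn : Nat.card W = n ^ 2) :
    (n : ℤ) * (n - 1) ≤ 2 * Nat.card {b // χ (b, 0) = 1} := by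
  classical
  have := Fintype.ofFinite W
  have h1 : ∀ b, χ (b, 0) = if χ (b, 0) = 1 then 1 else -1 := fun b => by
    have : χ (b, 0) * χ (b, 0) = 1 := by
      rw [h.mul, ← two_smul F, h2, ← h.zero]; simp [hA.self_eq_zero]
    split_ifs with h3
    exacts [h3, (mul_self_eq_one_iff.1 this).resolve_left h3]
  have h3 : (∑ b, χ (b, 0)) ^ 2 = (n : ℂ) ^ 2 := by
    rw [sq, Finset.sum_mul_sum]
    calc ∑ a, ∑ b, χ (a, 0) * χ (b, 0) = ∑ a, ∑ c, χ (c, 0) * h.psi (β a c) := by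
          refine Finset.sum_congr rfl fun a _ => Fintype.sum_equiv (Equiv.addLeft a) _ _ fun b => ?_
          rw [mul_comm, h.mul, ← h.split]
          simp [add_comm, hA.self_eq_zero]
      _ = ∑ c, χ (c, 0) * if c = 0 then (Fintype.card W : ℂ) else 0 := by
          rw [Finset.sum_comm]
          exact Finset.sum_congr rfl fun c _ => by rw [← Finset.mul_sum, sum_form hψ hβ]
      _ = _ := by simp [h.zero, ← Nat.card_eq_fintype_card, hn]
  have h4 : ∑ b, χ (b, 0) = ((2 * Nat.card {b // χ (b, 0) = 1} - n ^ 2 : ℤ) : ℂ) := by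
    have h5 := Finset.card_filter_add_card_filter_not (s := Finset.univ) fun b => χ (b, 0) = 1
    rw [Finset.card_univ, ← Nat.card_eq_fintype_card, hn] at h5
    rw [Finset.sum_congr rfl fun b _ => h1 b, Finset.sum_ite, Nat.card_eq_fintype_card,
      Fintype.card_subtype]
    have h6 := congrArg (Nat.cast : ℕ → ℂ) h5
    push_cast at h6 ⊢
    simp only [Finset.sum_const, nsmul_eq_mul]
    linear_combination -h6
  rw [h4] at h3
  have h5 : (2 * Nat.card {b // χ (b, 0) = 1} - n ^ 2 : ℤ) ^ 2 = n ^ 2 := by exact_mod_cast h3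
  rcases sq_eq_sq_iff_eq_or_eq_neg.1 h5 with h6 | h6 <;> nlinarith [Int.natCast_nonneg n]

end SpW

end Cfsg.Lib.RepDeg
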